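import Cfsg.Prelude

set_option autoImplicit false

/-! S3814: interface. -/

namespace H88.F4

open Subgroup

variable {G : Type*} [Group G]

/-- `x` has no nontrivial fixed point on `V` -/
def Fpf (x : G) (V : Subgroup G) : Prop := ∀ v ∈ V, Commute x v → v = 1

/-- `H` contains `Z_t × Z_t` -/
def R2 (t : ℕ) (H : Subgroup G) : Prop :=
  ∃ x ∈ H, ∃ y ∈ H, orderOf x = t ∧ orderOf y = t ∧ Commute x y ∧ y ∉ zpowers x

/-- the environment: `K` faithful on `V`, three primes -/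
structure Env (p : ℕ) (τ : Finset ℕ) (V K : Subgroup G) : Prop where
  hp : p.Prime
  hτ : τ.card = 3
  hτp : ∀ t ∈ τ, t.Prime ∧ t ≠ p
  solv : Group.IsSolvable K
  card : ∀ t : ℕ, t.Prime → t ∣ Nat.card K → t ∈ τ
  ea : Cfsg.IsElementaryAbelian p V
  ntriv : V ≠ ⊥
  nrm : K ≤ normalizer (V : Set G)
  faith : ∀ k ∈ K, (∀ v ∈ V, Commute k v) → k = 1
  pair : ∀ a ∈ τ, ∀ b ∈ τ, a ≠ b → ∀ x ∈ K, ∀ y ∈ K, orderOf x = a → orderOf y = b →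
    Commute x y → ∀ v ∈ V, Commute x v → Commute y v → v = 1
  nt : ∀ a ∈ τ, ∀ b ∈ τ, ∀ c ∈ τ, a ≠ b → b ≠ c → a ≠ c → ∀ x ∈ K, ∀ y ∈ K, ∀ z ∈ K,
    orderOf x = a → orderOf y = b → orderOf z = c → Commute x y → Commute y z →
    Commute x z → False
  r2 : ∀ t ∈ τ, R2 t K
  J : ∀ a ∈ τ, ∀ b ∈ τ, a ≠ b → ∃ x ∈ K, ∃ y ∈ K, orderOf x = a ∧ orderOf y = b ∧ Commute x y

end H88.F4
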