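import Mathlib

/-! The exponent of a nilpotent group divides a power of the exponent of its centre. -/

set_option autoImplicit false

namespace H88.ExpZ

variable {G : Type*} [Group G]

theorem pow_mem_upper {m : ℕ} (h : ∀ x ∈ Subgroup.center G, x ^ m = 1) (i : ℕ) :
    ∀ x ∈ Subgroup.upperCentralSeries G (i + 1), x ^ m ∈ Subgroup.upperCentralSeries G i := by
  induction i with
  | zero =>
    intro x hx
    rw [Subgroup.mem_upperCentralSeries_succ_iff] at hx
    rw [Subgroup.upperCentralSeries_zero, Subgroup.mem_bot]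
    apply h
    rw [Subgroup.mem_center_iff]
    intro g
    have h1 := hx g
    rw [Subgroup.upperCentralSeries_zero, Subgroup.mem_bot, commutatorElement_def] at h1
    calc g * x = (x * g * x⁻¹ * g⁻¹)⁻¹ * (x * g) := by group
      _ = x * g := by rw [h1]; group
  | succ i ih =>
    intro x hx
    rw [Subgroup.mem_upperCentralSeries_succ_iff] at hx ⊢
    intro g
    have h1 := hx g
    have h2 := ih _ h1
    rw [Subgroup.mem_upperCentralSeries_succ_iff] at h1
    set Z := Subgroup.upperCentralSeries G i with hZ
    let X : G ⧸ Z := (x : G ⧸ Z)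
    let Y : G ⧸ Z := (g : G ⧸ Z)
    let C : G ⧸ Z := ((x * g * x⁻¹ * g⁻¹ : G) : G ⧸ Z)
    have hC : C = X * Y * X⁻¹ * Y⁻¹ := rfl
    have hCX : C * X = X * C := by
      have h3 := h1 x
      rw [← QuotientGroup.eq_one_iff] at h3
      have h4 : C * X * C⁻¹ * X⁻¹ = 1 := h3
      calc C * X = (C * X * C⁻¹ * X⁻¹) * (X * C) := by group
        _ = X * C := by rw [h4, one_mul]
    have hCm : C ^ m = 1 := by
      have h3 := (QuotientGroup.eq_one_iff _).2 h2
      exact h3
    have hk : ∀ k : ℕ, X ^ k * Y = C ^ k * Y * X ^ k := by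
      intro k
      induction k with
      | zero => simp
      | succ k ihk =>
        have h5 : X * Y = C * Y * X := by rw [hC]; group
        have h6 : X * C ^ k = C ^ k * X := ((show Commute C X from hCX).pow_left k).eq.symm
        calc X ^ (k + 1) * Y = X * (X ^ k * Y) := by rw [pow_succ']; group
          _ = X * (C ^ k * Y * X ^ k) := by rw [ihk]
          _ = (X * C ^ k) * Y * X ^ k := by group
          _ = C ^ k * (X * Y) * X ^ k := by rw [h6]; group
          _ = C ^ (k + 1) * Y * X ^ (k + 1) := by rw [h5, pow_succ C, pow_succ' X]; group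
    have h7 := hk m
    rw [hCm, one_mul] at h7
    rw [← QuotientGroup.eq_one_iff]
    show X ^ m * Y * (X ^ m)⁻¹ * Y⁻¹ = 1
    rw [h7]
    group

theorem pow_eq_one {m c : ℕ} (h : ∀ x ∈ Subgroup.center G, x ^ m = 1)
    (hc : Subgroup.lowerCentralSeries (⊤ : Subgroup G) c = ⊥) (x : G) : x ^ (m ^ c) = 1 := by
  rw [Subgroup.lowerCentralSeries_eq_bot_iff_upperCentralSeries_eq_top] at hc
  have key : ∀ j : ℕ, j ≤ c → x ^ (m ^ j) ∈ Subgroup.upperCentralSeries G (c - j) := by
    intro j
    induction j with
    | zero =>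
      intro _
      rw [Nat.sub_zero, hc]
      exact Subgroup.mem_top _
    | succ j ih =>
      intro hj
      have h1 := ih (by omega)
      have h2 : c - j = (c - (j + 1)) + 1 := by omega
      rw [h2] at h1
      have h3 := pow_mem_upper h _ _ h1
      rwa [← pow_mul, ← pow_succ] at h3
  have h1 := key c le_rfl
  rw [Nat.sub_self, Subgroup.upperCentralSeries_zero, Subgroup.mem_bot] at h1
  exact h1

end H88.ExpZ
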