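import Cfsg.Agent.Lib.H88.F4
import Cfsg.Agent.S3765

set_option autoImplicit false

/-! S3814: T1 (fixed points of elements of prime order). -/

namespace H88.F4

open Subgroup

variable {G : Type*} [Group G] [Finite G]

theorem commute_of_zpowers {x k y : G} (hk : k ∈ zpowers x) (hp : (orderOf x).Prime) (hk1 : k ≠ 1)
    (h : Commute k y) : Commute x y := by
  have h1 : zpowers k = zpowers x := by
    apply Subgroup.eq_of_le_of_card_ge (zpowers_le.mpr hk)
    rw [Nat.card_zpowers, Nat.card_zpowers]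
    have h2 : orderOf k ∣ orderOf x := by
      have := Subgroup.card_dvd_of_le (zpowers_le.mpr hk)
      rwa [Nat.card_zpowers, Nat.card_zpowers] at this
    rcases (Nat.dvd_prime hp).1 h2 with h3 | h3
    · exact absurd (orderOf_eq_one_iff.1 h3) hk1
    · exact h3.ge
  have h2 : x ∈ zpowers k := by rw [h1]; exact mem_zpowers x
  obtain ⟨j, hj⟩ := mem_zpowers_iff.1 h2
  rw [← hj]
  exact h.zpow_left j

theorem hhp1 {p q r : ℕ} (hp : p.Prime) (hq : q.Prime) (hr : r.Prime) (hpq : p ≠ q) (hpr : p ≠ r)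
    (hqr : q ≠ r) (V Q : Subgroup G) (x : G) (hV : Cfsg.IsElementaryAbelian p V)
    (hQ : IsPGroup q Q) (hx : orderOf x = r) (hxV : x ∈ normalizer (V : Set G))
    (hxQ : x ∈ normalizer (Q : Set G)) (hQV : Q ≤ normalizer (V : Set G))
    (hex : q = 2 → ∀ a ∈ Q, ∀ b ∈ Q, Commute a b) (hf : Fpf x V)
    (hfa : ∀ y ∈ Q, (∀ v ∈ V, Commute y v) → y = 1) : ∀ y ∈ Q, Commute x y := by
  intro y0 hy0
  by_cases hV1 : V = ⊥
  · have : y0 = 1 := hfa y0 hy0 (fun v hv => by
      rw [hV1, mem_bot] at hv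
      rw [hv]; exact Commute.one_right _)
    rw [this]; exact Commute.one_right _
  by_contra hcon
  have hxp : (orderOf x).Prime := by rw [hx]; exact hr
  have hxnc : ¬ ∀ v ∈ V, Commute x v := by
    intro hall
    apply hV1
    rw [eq_bot_iff]
    intro v hv
    exact mem_bot.2 (hf v hv (hall v hv))
  -- faithful
  have hfaith : (zpowers x ⊔ Q) ⊓ centralizer (V : Set G) = ⊥ := by
    rw [eq_bot_iff]
    rintro g ⟨hg, hgc⟩
    have hgc' : ∀ v ∈ V, Commute g v := fun v hv => (mem_centralizer_iff.1 hgc v hv).symm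
    have hle : zpowers x ≤ normalizer (Q : Set G) := zpowers_le.2 hxQ
    have hg' : g ∈ ((Q ⊔ zpowers x : Subgroup G) : Set G) := by rw [sup_comm]; exact hg
    rw [coe_mul_of_right_le_normalizer_left Q (zpowers x) hle] at hg'
    obtain ⟨y, hy, k, hk, rfl⟩ := hg'
    have hyQ : y ∈ Q := hy
    obtain ⟨j, hj⟩ := mem_zpowers_iff.1 (show k ∈ zpowers x from hk)
    obtain ⟨m, hm⟩ := hQ ⟨y, hyQ⟩
    have hym : y ^ q ^ m = 1 := congrArg Subtype.val hm
    -- y acts as k⁻¹ on V
    have hact : ∀ n : ℕ, ∀ v ∈ V, y ^ n * v * (y ^ n)⁻¹ = (k⁻¹) ^ n * v * ((k⁻¹) ^ n)⁻¹ := by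
      have hkV : k ∈ normalizer (V : Set G) := (zpowers_le.2 hxV) hk
      intro n
      induction n with
      | zero => intro v hv; simp
      | succ n ih =>
        intro v hv
        have e1 : ∀ w ∈ V, y * w * y⁻¹ = k⁻¹ * w * k := by
          intro w hw
          have hw' : k⁻¹ * w * k ∈ V := by
            have := (mem_normalizer_iff.1 (inv_mem hkV) w).1 hw
            simpa using this
          have h1 := (hgc' _ hw').eq
          calc y * w * y⁻¹ = (y * k * (k⁻¹ * w * k)) * k⁻¹ * y⁻¹ := by group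
            _ = ((k⁻¹ * w * k) * (y * k)) * k⁻¹ * y⁻¹ := by rw [h1]
            _ = k⁻¹ * w * k := by group
        have h2 : (k⁻¹) ^ n * v * ((k⁻¹) ^ n)⁻¹ ∈ V :=
          (mem_normalizer_iff.1 (pow_mem (inv_mem hkV) n) v).1 hv
        calc y ^ (n + 1) * v * (y ^ (n + 1))⁻¹ = y * (y ^ n * v * (y ^ n)⁻¹) * y⁻¹ := by
              rw [pow_succ']; group
          _ = y * ((k⁻¹) ^ n * v * ((k⁻¹) ^ n)⁻¹) * y⁻¹ := by rw [ih v hv]
          _ = k⁻¹ * ((k⁻¹) ^ n * v * ((k⁻¹) ^ n)⁻¹) * k := e1 _ h2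
          _ = (k⁻¹) ^ (n + 1) * v * ((k⁻¹) ^ (n + 1))⁻¹ := by rw [pow_succ']; group
    have hk1 : k = 1 := by
      by_contra hk1
      apply hxnc
      intro v hv
      have h1 := hact (q ^ m) v hv
      rw [hym, one_mul, inv_one, mul_one] at h1
      have h2 : Commute ((k⁻¹) ^ q ^ m) v := by
        have : v * (k⁻¹) ^ q ^ m = (k⁻¹) ^ q ^ m * v := by
          conv_lhs => rw [h1]
          group
        exact this.symm
      refine commute_of_zpowers (pow_mem (inv_mem hk) _) hxp ?_ h2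
      intro h3
      have h4 : k ^ q ^ m = 1 := by rw [inv_pow, inv_eq_one] at h3; exact h3
      have h5 : orderOf k ∣ q ^ m := orderOf_dvd_of_pow_eq_one h4
      have h6 : orderOf k ∣ r := by
        have := Subgroup.card_dvd_of_le (zpowers_le.mpr (show k ∈ zpowers x from hk))
        rwa [Nat.card_zpowers, Nat.card_zpowers, hx] at this
      have h7 : orderOf k = 1 :=
        Nat.eq_one_of_dvd_coprimes (Nat.Coprime.pow_left m ((Nat.coprime_primes hq hr).2 hqr)) h5 h6
      exact hk1 (orderOf_eq_one_iff.1 h7)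
    rw [hk1] at hgc' ⊢
    show y * 1 ∈ (⊥ : Subgroup G)
    rw [mul_one, mem_bot]
    exact hfa y hyQ (fun v hv => by have := hgc' v hv; simpa using this)
  have hXQ : zpowers x ⊓ centralizer (Q : Set G) = ⊥ := by
    rw [eq_bot_iff]
    rintro k ⟨hk, hkc⟩
    by_contra hk1
    apply hcon
    exact commute_of_zpowers hk hxp (fun h => hk1 (mem_bot.2 h)) (mem_centralizer_iff.1 hkc y0 hy0).symm
  have key := Cfsg.Agent.S3765.result hp hq hr hpq hpr hqr (zpowers x) Q V
    (by rw [Nat.card_zpowers, hx]) hQ (zpowers_le.2 hxQ) hXQ hV hV1 (zpowers_le.2 hxV) hQV hfaith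
    (fun h2 _ => ⟨⟨fun a b => Subtype.ext (hex h2 a.1 a.2 b.1 b.2)⟩⟩)
  apply key
  rw [eq_bot_iff]
  rintro v ⟨hv, hvc⟩
  exact mem_bot.2 (hf v hv (mem_centralizer_iff.1 hvc x (mem_zpowers x)))

end H88.F4
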