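import Cfsg.Agent.Lib.H88.F4a

set_option autoImplicit false

/-! S3814: T1, version with kernel. -/

namespace H88.F4

open Subgroup

variable {G : Type*} [Group G] [Finite G]

theorem hhp {p q r : ℕ} (hp : p.Prime) (hq : q.Prime) (hr : r.Prime) (hpq : p ≠ q) (hpr : p ≠ r)
    (hqr : q ≠ r) (V Q : Subgroup G) (x : G) (hV : Cfsg.IsElementaryAbelian p V)
    (hQ : IsPGroup q Q) (hx : orderOf x = r) (hxV : x ∈ normalizer (V : Set G))
    (hxQ : x ∈ normalizer (Q : Set G)) (hQV : Q ≤ normalizer (V : Set G))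
    (hex : q = 2 → ∀ a ∈ Q, ∀ b ∈ Q, Commute a b) (hf : Fpf x V) :
    ∀ y ∈ Q, ∀ v ∈ V, Commute (y * x * y⁻¹ * x⁻¹) v := by
  classical
  set C : Subgroup G := Q ⊓ centralizer (V : Set G) with hC
  have hCV : ∀ c ∈ C, ∀ v ∈ V, Commute c v := fun c hc v hv =>
    (mem_centralizer_iff.1 hc.2 v hv).symm
  have hCof : ∀ c ∈ Q, (∀ v ∈ V, Commute c v) → c ∈ C := fun c hc h =>
    ⟨hc, mem_centralizer_iff.2 (fun v hv => (h v hv).symm)⟩
  -- V ∩ Q trivial
  have hVQ : ∀ g ∈ V, g ∈ Q → g = 1 := by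
    intro g hg hgQ
    have h1 : g ^ p = 1 := hV.2 g hg
    obtain ⟨m, hm⟩ := hQ ⟨g, hgQ⟩
    have h2 : g ^ q ^ m = 1 := congrArg Subtype.val hm
    have h3 := orderOf_dvd_of_pow_eq_one h1
    have h4 := orderOf_dvd_of_pow_eq_one h2
    have h5 : orderOf g = 1 := Nat.eq_one_of_dvd_coprimes
      (Nat.Coprime.pow_right m ((Nat.coprime_primes hp hq).2 hpq)) h3 h4
    exact orderOf_eq_one_iff.1 h5
  -- normalizers of C
  have conjC : ∀ g : G, g ∈ normalizer (Q : Set G) → g ∈ normalizer (V : Set G) →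
      g ∈ normalizer (C : Set G) := by
    intro g hgQ hgV
    have key : ∀ g : G, g ∈ normalizer (Q : Set G) → g ∈ normalizer (V : Set G) →
        ∀ c ∈ C, g * c * g⁻¹ ∈ C := by
      intro g hgQ hgV c hc
      apply hCof
      · exact (mem_normalizer_iff.1 hgQ c).1 hc.1
      · intro v hv
        have h1 : g⁻¹ * v * g ∈ V := by
          have := (mem_normalizer_iff.1 (inv_mem hgV) v).1 hv
          simpa using this
        have h2 := (hCV c hc _ h1).eq
        show g * c * g⁻¹ * v = v * (g * c * g⁻¹)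
        calc g * c * g⁻¹ * v = g * (c * (g⁻¹ * v * g)) * g⁻¹ := by group
          _ = g * ((g⁻¹ * v * g) * c) * g⁻¹ := by rw [h2]
          _ = v * (g * c * g⁻¹) := by group
    rw [mem_normalizer_iff]
    intro c
    constructor
    · exact key g hgQ hgV c
    · intro h
      have := key g⁻¹ (inv_mem hgQ) (inv_mem hgV) _ h
      simpa [mul_assoc] using this
  have hVn : V ≤ normalizer (C : Set G) := by
    intro v hv
    rw [mem_normalizer_iff]
    intro c
    constructor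
    · intro hc
      have h1 := (hCV c hc v hv).eq
      have : v * c * v⁻¹ = c := by rw [← h1]; group
      rw [this]; exact hc
    · intro hc
      have h1 := (hCV _ hc v hv).eq
      have : v * c * v⁻¹ = c := by
        have h2 : v * c * v⁻¹ * v = v * (v * c * v⁻¹) := h1
        have h3 : v * c = v * (v * c * v⁻¹) := by
          calc v * c = v * c * v⁻¹ * v := by group
            _ = v * (v * c * v⁻¹) := h2
        exact (mul_left_cancel h3).symm
      rw [this] at hc; exact hc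
  have hQn : Q ≤ normalizer (C : Set G) := fun y hy =>
    conjC y (le_normalizer hy) (hQV hy)
  have hxn : x ∈ normalizer (C : Set G) := conjC x hxQ hxV
  let NC : Subgroup G := normalizer (C : Set G)
  let C' : Subgroup NC := C.subgroupOf NC
  haveI hC'n : C'.Normal := by
    show (C.subgroupOf (normalizer (C : Set G))).Normal
    infer_instance
  let π : NC →* NC ⧸ C' := QuotientGroup.mk' C'
  have hπ : ∀ g : NC, π g = 1 ↔ (g : G) ∈ C := by
    intro g
    rw [QuotientGroup.mk'_apply, QuotientGroup.eq_one_iff]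
    exact Iff.rfl
  have hcomm : ∀ a b : NC, Commute (π a) (π b) → (a : G) * b * (a : G)⁻¹ * (b : G)⁻¹ ∈ C := by
    intro a b h
    have h1 : π (a * b * a⁻¹ * b⁻¹) = 1 := by
      rw [map_mul, map_mul, map_mul, map_inv, map_inv, h.eq]
      group
    exact (hπ _).1 h1
  let V' : Subgroup (NC ⧸ C') := (V.subgroupOf NC).map π
  let Q' : Subgroup (NC ⧸ C') := (Q.subgroupOf NC).map π
  have hV' : Cfsg.IsElementaryAbelian p V' := by
    refine ⟨⟨⟨?_⟩⟩, ?_⟩
    · rintro ⟨_, a, ha, rfl⟩ ⟨_, b, hb, rfl⟩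
      apply Subtype.ext
      show π a * π b = π b * π a
      have h1 := hV.1.is_comm.comm ⟨(a : G), ha⟩ ⟨(b : G), hb⟩
      have h3 : (a : G) * b = b * a := congrArg (Subtype.val : V → G) h1
      have h2 : a * b = b * a := Subtype.ext h3
      rw [← map_mul, ← map_mul, h2]
    · rintro _ ⟨a, ha, rfl⟩
      have h1 : a ^ p = 1 := Subtype.ext (hV.2 (a : G) ha)
      rw [← map_pow, h1, map_one]
  have hQ' : IsPGroup q Q' := by
    apply IsPGroup.map
    exact hQ.comap_subtype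
  let x' : NC := ⟨x, hxn⟩
  have hCq : ∀ c ∈ C, ∃ m : ℕ, c ^ q ^ m = 1 := by
    intro c hc
    obtain ⟨m, hm⟩ := hQ ⟨c, hc.1⟩
    exact ⟨m, congrArg Subtype.val hm⟩
  have hx' : orderOf (π x') = r := by
    have h1 : orderOf (π x') ∣ r := by
      apply orderOf_dvd_of_pow_eq_one
      rw [← map_pow]
      have : x' ^ r = 1 := Subtype.ext (by show x ^ r = 1; rw [← hx, pow_orderOf_eq_one])
      rw [this, map_one]
    rcases (Nat.dvd_prime hr).1 h1 with h2 | h2
    · exfalso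
      have h3 : x ∈ C := (hπ x').1 (orderOf_eq_one_iff.1 h2)
      obtain ⟨m, hm⟩ := hCq x h3
      have h4 := orderOf_dvd_of_pow_eq_one hm
      rw [hx] at h4
      have h5 := (Nat.prime_dvd_prime_iff_eq hr hq).1 (hr.dvd_of_dvd_pow h4)
      exact hqr h5.symm
    · exact h2
  have hnorm : ∀ (S : Subgroup G) (g : NC), (g : G) ∈ normalizer (S : Set G) →
      π g ∈ normalizer (((S.subgroupOf NC).map π : Subgroup (NC ⧸ C')) : Set (NC ⧸ C')) := by
    intro S g hg
    have key : ∀ g : NC, (g : G) ∈ normalizer (S : Set G) → ∀ s ∈ (S.subgroupOf NC).map π,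
        π g * s * (π g)⁻¹ ∈ (S.subgroupOf NC).map π := by
      rintro g hg _ ⟨s, hs, rfl⟩
      refine ⟨g * s * g⁻¹, ?_, by rw [map_mul, map_mul, map_inv]⟩
      exact (mem_normalizer_iff.1 hg (s : G)).1 hs
    rw [mem_normalizer_iff]
    intro s
    constructor
    · exact key g hg s
    · intro h
      have := key g⁻¹ (inv_mem hg) _ h
      rw [map_inv] at this
      simpa [mul_assoc] using this
  have hf' : Fpf (π x') V' := by
    rintro _ ⟨v, hv, rfl⟩ hc
    have h1 := hcomm x' v hc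
    have h2 : x * (v : G) * x⁻¹ * (v : G)⁻¹ ∈ V :=
      mul_mem ((mem_normalizer_iff.1 hxV (v : G)).1 hv) (inv_mem hv)
    have h3 : x * (v : G) * x⁻¹ * (v : G)⁻¹ = 1 := hVQ _ h2 h1.1
    have h4 : Commute x (v : G) := by
      have := mul_inv_eq_one.1 h3
      exact mul_inv_eq_iff_eq_mul.1 this
    have h5 : v = 1 := Subtype.ext (hf _ hv h4)
    rw [h5, map_one]
  have hfa' : ∀ y ∈ Q', (∀ v ∈ V', Commute y v) → y = 1 := by
    rintro _ ⟨y, hy, rfl⟩ hc
    rw [hπ]
    apply hCof _ hy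
    intro v hv
    have h1 := hcomm y ⟨v, hVn hv⟩ (hc _ ⟨⟨v, hVn hv⟩, hv, rfl⟩)
    have h2 : (y : G) * v * (y : G)⁻¹ * v⁻¹ ∈ V :=
      mul_mem ((mem_normalizer_iff.1 (hQV hy) v).1 hv) (inv_mem hv)
    have h3 : (y : G) * v * (y : G)⁻¹ * v⁻¹ = 1 := hVQ _ h2 h1.1
    exact mul_inv_eq_iff_eq_mul.1 (mul_inv_eq_one.1 h3)
  have hQV' : Q' ≤ normalizer (V' : Set (NC ⧸ C')) := by
    rintro _ ⟨y, hy, rfl⟩
    exact hnorm V y (hQV hy)
  have hex' : q = 2 → ∀ a ∈ Q', ∀ b ∈ Q', Commute a b := by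
    rintro h2 _ ⟨a, ha, rfl⟩ _ ⟨b, hb, rfl⟩
    have h1 : a * b = b * a := Subtype.ext (hex h2 _ ha _ hb).eq
    show π a * π b = π b * π a
    rw [← map_mul, ← map_mul, h1]
  have main := hhp1 hp hq hr hpq hpr hqr V' Q' (π x') hV' hQ' hx' (hnorm V x' hxV)
    (hnorm Q x' hxQ) hQV' hex' hf' hfa'
  intro y hy v hv
  have h1 := main (π ⟨y, hQn hy⟩) ⟨⟨y, hQn hy⟩, hy, rfl⟩
  have h2 := hcomm ⟨y, hQn hy⟩ x' h1.symm
  exact hCV _ h2 v hv

end H88.F4
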