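import Mathlib

set_option autoImplicit false

/-! S3814: averaging argument for Frobenius actions. -/

namespace H88.F4

open Subgroup Finset

theorem avg {Γ M : Type*} [Group Γ] [CommGroup M] [Finite M] [MulDistribMulAction Γ M]
    (N : Subgroup Γ) [Finite N] (b : Γ) (m : ℕ) (hm : 0 < m) (hbm : b ^ m = 1)
    (hbN : ∀ n ∈ N, b * n * b⁻¹ ∈ N)
    (hfree : ∀ i, 0 < i → i < m → ∀ n ∈ N, b ^ i * n = n * b ^ i → n = 1)
    (hfix : ∀ v : M, b • v = v → v = 1)
    (hcop : ∀ v : M, (orderOf v).Coprime (Nat.card N)) : ∀ n ∈ N, ∀ v : M, n • v = v := by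
  classical
  haveI := Fintype.ofFinite N
  have h1 : ∀ w : M, ∏ i ∈ range m, (b ^ i) • w = 1 := by
    intro w
    apply hfix
    rw [Finset.smul_prod']
    have e1 : ∏ i ∈ range m, b • (b ^ i) • w = ∏ i ∈ range m, (b ^ (i + 1)) • w := by
      apply prod_congr rfl
      intro i _
      rw [smul_smul, ← pow_succ']
    rw [e1]
    have e2 := prod_range_succ (fun i => (b ^ i) • w) m
    have e3 := prod_range_succ' (fun i => (b ^ i) • w) m
    rw [e2] at e3
    simp only [hbm, pow_zero] at e3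
    exact (mul_right_cancel e3).symm
  have hbi : ∀ i : ℕ, ∀ n ∈ N, b ^ i * n * (b ^ i)⁻¹ ∈ N := by
    intro i
    induction i with
    | zero => intro n hn; simpa using hn
    | succ i ih =>
      intro n hn
      have := hbN _ (ih n hn)
      have e : b ^ (i + 1) * n * (b ^ (i + 1))⁻¹ = b * (b ^ i * n * (b ^ i)⁻¹) * b⁻¹ := by
        rw [pow_succ']; group
      rw [e]; exact this
  have h2 : ∀ (n : Γ) (v : M), ∏ i ∈ range m, (n * b ^ i * n⁻¹) • v = 1 := by
    intro n v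
    have e : ∀ i ∈ range m, (n * b ^ i * n⁻¹) • v = n • ((b ^ i) • (n⁻¹ • v)) := by
      intro i _
      rw [smul_smul, smul_smul, mul_assoc]
    rw [prod_congr rfl e, ← Finset.smul_prod', h1, smul_one]
  let T : M → M := fun w => ∏ n : N, (n : Γ) • w
  have hTmul : ∀ (k : ℕ) (f : ℕ → M), ∏ i ∈ range k, T (f i) = T (∏ i ∈ range k, f i) := by
    intro k f
    show ∏ i ∈ range k, ∏ n : N, (n : Γ) • f i = ∏ n : N, (n : Γ) • ∏ i ∈ range k, f i
    rw [prod_comm]
    apply prod_congr rfl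
    intro n _
    rw [Finset.smul_prod']
  have hTinv : ∀ v : M, T v⁻¹ = (T v)⁻¹ := by
    intro v
    show ∏ n : N, (n : Γ) • v⁻¹ = (∏ n : N, (n : Γ) • v)⁻¹
    rw [← prod_inv_distrib]
    apply prod_congr rfl
    intro n _
    rw [smul_inv']
  have h4 : ∀ (i : ℕ), 0 < i → i < m → ∀ v : M,
      ∏ n : N, ((n : Γ) * b ^ i * (n : Γ)⁻¹) • v = T ((b ^ i) • v) := by
    intro i hi0 him v
    let e : N → N := fun n => n * ⟨b ^ i * (n : Γ)⁻¹ * (b ^ i)⁻¹, hbi i _ (inv_mem n.2)⟩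
    have hinj : Function.Injective e := by
      intro n n' h
      have h1 : (n : Γ) * (b ^ i * (n : Γ)⁻¹ * (b ^ i)⁻¹) =
          (n' : Γ) * (b ^ i * (n' : Γ)⁻¹ * (b ^ i)⁻¹) := congrArg Subtype.val h
      have h3 : b ^ i * ((n' : Γ)⁻¹ * n) = ((n' : Γ)⁻¹ * n) * b ^ i := by
        have h4 : (n' : Γ)⁻¹ * ((n : Γ) * (b ^ i * (n : Γ)⁻¹ * (b ^ i)⁻¹)) * b ^ i * (n : Γ) =
            (n' : Γ)⁻¹ * ((n' : Γ) * (b ^ i * (n' : Γ)⁻¹ * (b ^ i)⁻¹)) * b ^ i * (n : Γ) := by
          rw [h1]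
        have h5 : (n' : Γ)⁻¹ * ((n : Γ) * (b ^ i * (n : Γ)⁻¹ * (b ^ i)⁻¹)) * b ^ i * (n : Γ) =
            ((n' : Γ)⁻¹ * n) * b ^ i := by group
        have h6 : (n' : Γ)⁻¹ * ((n' : Γ) * (b ^ i * (n' : Γ)⁻¹ * (b ^ i)⁻¹)) * b ^ i * (n : Γ) =
            b ^ i * ((n' : Γ)⁻¹ * n) := by group
        rw [h5, h6] at h4
        exact h4.symm
      have h7 := hfree i hi0 him _ (mul_mem (inv_mem n'.2) n.2) h3
      apply Subtype.ext
      exact (inv_mul_eq_one.1 h7).symm
    have hbij : Function.Bijective e := Finite.injective_iff_bijective.1 hinj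
    show _ = ∏ n : N, (n : Γ) • ((b ^ i) • v)
    apply Fintype.prod_bijective e hbij
    intro n
    rw [smul_smul]
    congr 1
    show (n : Γ) * b ^ i * (n : Γ)⁻¹ = (n : Γ) * (b ^ i * (n : Γ)⁻¹ * (b ^ i)⁻¹) * b ^ i
    group
  have h6 : ∀ v : M, v ^ Nat.card N = T v := by
    intro v
    have e0 : ∏ i ∈ range m, ∏ n : N, ((n : Γ) * b ^ i * (n : Γ)⁻¹) • v = 1 := by
      rw [prod_comm]
      apply prod_eq_one
      intro n _
      exact h2 _ _
    obtain ⟨m', rfl⟩ : ∃ m', m = m' + 1 := ⟨m - 1, by omega⟩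
    rw [prod_range_succ'] at e0
    have e1 : ∏ i ∈ range m', ∏ n : N, ((n : Γ) * b ^ (i + 1) * (n : Γ)⁻¹) • v =
        ∏ i ∈ range m', T ((b ^ (i + 1)) • v) := by
      apply prod_congr rfl
      intro i hi
      exact h4 (i + 1) (by omega) (by have := mem_range.1 hi; omega) v
    rw [e1, hTmul m' (fun i => (b ^ (i + 1)) • v)] at e0
    have e2 := h1 v
    rw [prod_range_succ'] at e2
    have e3 : ∏ i ∈ range m', (b ^ (i + 1)) • v = v⁻¹ := by
      rw [pow_zero, one_smul] at e2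
      exact eq_inv_of_mul_eq_one_left e2
    rw [e3, hTinv] at e0
    have e4 : ∏ n : N, ((n : Γ) * b ^ 0 * (n : Γ)⁻¹) • v = v ^ Nat.card N := by
      have : ∀ n ∈ (Finset.univ : Finset N), ((n : Γ) * b ^ 0 * (n : Γ)⁻¹) • v = v := by
        intro n _
        rw [pow_zero, mul_one, mul_inv_cancel, one_smul]
      rw [prod_congr rfl this, prod_const, Finset.card_univ, Nat.card_eq_fintype_card]
    rw [e4] at e0
    have := eq_of_inv_mul_eq_one e0
    exact this.symm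
  intro k hk v
  have h7 : k • T v = T v := by
    show k • ∏ n : N, (n : Γ) • v = ∏ n : N, (n : Γ) • v
    rw [Finset.smul_prod']
    apply Fintype.prod_bijective (fun n : N => (⟨k, hk⟩ : N) * n) (Group.mulLeft_bijective _)
    intro n
    rw [smul_smul]
    rfl
  rw [← h6, smul_pow'] at h7
  obtain ⟨j, hj⟩ := exists_pow_eq_self_of_coprime (hcop v).symm
  conv_lhs => rw [← hj, smul_pow', smul_pow', h7]
  exact hj

end H88.F4
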