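import Cfsg.Agent.Lib.H88.F4b
import Cfsg.Agent.Lib.H88.F4c

set_option autoImplicit false

/-! S3814: T2. -/

namespace H88.F4

open Subgroup

variable {G : Type*} [Group G] [Finite G]

theorem pp_aux {p q r s : ℕ} (hp : p.Prime) (hq : q.Prime) (hr : r.Prime) (hs : s.Prime)
    (hpq : p ≠ q) (hpr : p ≠ r) (hps : p ≠ s) (hqr : q ≠ r) (hqs : q ≠ s)
    (V N : Subgroup G) (x y : G) (hV : Cfsg.IsElementaryAbelian p V) (hNq : IsPGroup q N)
    (hNa : ∀ a ∈ N, ∀ b ∈ N, Commute a b) (hNV : N ≤ normalizer (V : Set G))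
    (hfa : ∀ n ∈ N, (∀ v ∈ V, Commute n v) → n = 1)
    (hxV : x ∈ normalizer (V : Set G)) (hyV : y ∈ normalizer (V : Set G))
    (hxN : x ∈ normalizer (N : Set G)) (hyN : y ∈ normalizer (N : Set G))
    (hx : orderOf x = r) (hy : orderOf y = s) (hxy : Commute x y)
    (h1 : ∀ v ∈ V, Commute x v → Commute y v → v = 1)
    (h2 : ∀ n ∈ N, Commute x n → n ≠ 1 → ∀ v ∈ V, Commute x v → Commute n v → v = 1)
    (h4 : ∀ n ∈ N, Commute x n → Commute y n → n = 1)
    (n0 : G) (hn0 : n0 ∈ N) (hn1 : n0 ≠ 1) (hn2 : Commute x n0) :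
    Fpf x V ∧ (∀ n ∈ N, Commute x n) ∧ Fpf y N ∧ ¬ Fpf y V := by
  classical
  have hcx : ∀ g : G, g ∈ centralizer ({x} : Set G) ↔ Commute x g := fun g => by
    rw [mem_centralizer_singleton_iff]
    exact ⟨fun h => h.symm, fun h => h.symm⟩
  set V1 : Subgroup G := V ⊓ centralizer ({x} : Set G) with hV1
  set N1 : Subgroup G := N ⊓ centralizer ({x} : Set G) with hN1
  have hyc : ∀ g : G, Commute x g → Commute x (y * g * y⁻¹) := fun g hg =>
    (hxy.mul_right hg).mul_right hxy.inv_right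
  have hyc' : ∀ g : G, Commute x (y * g * y⁻¹) → Commute x g := by
    intro g hg
    have := (hxy.inv_right.mul_right hg).mul_right hxy
    have e : y⁻¹ * (y * g * y⁻¹) * y = g := by group
    rwa [e] at this
  have hyV1 : y ∈ normalizer (V1 : Set G) := by
    rw [mem_normalizer_iff]
    intro g
    constructor
    · rintro ⟨hg, hgc⟩
      exact ⟨(mem_normalizer_iff.1 hyV g).1 hg, (hcx _).2 (hyc g ((hcx g).1 hgc))⟩
    · rintro ⟨hg, hgc⟩
      exact ⟨(mem_normalizer_iff.1 hyV g).2 hg, (hcx _).2 (hyc' g ((hcx _).1 hgc))⟩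
  have hyN1 : y ∈ normalizer (N1 : Set G) := by
    rw [mem_normalizer_iff]
    intro g
    constructor
    · rintro ⟨hg, hgc⟩
      exact ⟨(mem_normalizer_iff.1 hyN g).1 hg, (hcx _).2 (hyc g ((hcx g).1 hgc))⟩
    · rintro ⟨hg, hgc⟩
      exact ⟨(mem_normalizer_iff.1 hyN g).2 hg, (hcx _).2 (hyc' g ((hcx _).1 hgc))⟩
  have hNV1 : N1 ≤ normalizer (V1 : Set G) := by
    rintro n ⟨hn, hnc⟩
    have hnx : Commute x n := (hcx n).1 hnc
    rw [mem_normalizer_iff]
    intro g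
    constructor
    · rintro ⟨hg, hgc⟩
      exact ⟨(mem_normalizer_iff.1 (hNV hn) g).1 hg,
        (hcx _).2 ((hnx.mul_right ((hcx g).1 hgc)).mul_right hnx.inv_right)⟩
    · rintro ⟨hg, hgc⟩
      refine ⟨(mem_normalizer_iff.1 (hNV hn) g).2 hg, (hcx _).2 ?_⟩
      have := (hnx.inv_right.mul_right ((hcx _).1 hgc)).mul_right hnx
      have e : n⁻¹ * (n * g * n⁻¹) * n = g := by group
      rwa [e] at this
  have hV1e : Cfsg.IsElementaryAbelian p V1 := by
    refine ⟨⟨⟨?_⟩⟩, fun a ha => hV.2 a ha.1⟩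
    rintro ⟨a, ha⟩ ⟨b, hb⟩
    apply Subtype.ext
    have := hV.1.is_comm.comm ⟨a, ha.1⟩ ⟨b, hb.1⟩
    exact congrArg (Subtype.val : V → G) this
  have hN1q : IsPGroup q N1 := hNq.to_le inf_le_left
  have hfy : Fpf y V1 := fun v hv hc => h1 v hv.1 ((hcx v).1 hv.2) hc
  have key := hhp hp hq hs hpq hps hqs V1 N1 y hV1e hN1q hy hyV1 hyN1 hNV1
    (fun _ a ha b hb => hNa a ha.1 b hb.1) hfy
  -- n0 is a commutator
  let f : N1 → N1 := fun n => ⟨(n : G) * y * (n : G)⁻¹ * y⁻¹, by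
    have e : (n : G) * y * (n : G)⁻¹ * y⁻¹ = (n : G) * (y * (n : G)⁻¹ * y⁻¹) := by group
    rw [e]
    exact mul_mem n.2 ((mem_normalizer_iff.1 hyN1 _).1 (inv_mem n.2))⟩
  have hinj : Function.Injective f := by
    intro n n' h
    have e1 : (n : G) * y * (n : G)⁻¹ * y⁻¹ = (n' : G) * y * (n' : G)⁻¹ * y⁻¹ :=
      congrArg Subtype.val h
    have e2 : Commute y ((n' : G)⁻¹ * n) := by
      have e3 : (n : G) * y * (n : G)⁻¹ = (n' : G) * y * (n' : G)⁻¹ := mul_right_cancel e1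
      show y * ((n' : G)⁻¹ * n) = (n' : G)⁻¹ * n * y
      calc y * ((n' : G)⁻¹ * n) = (n' : G)⁻¹ * ((n' : G) * y * (n' : G)⁻¹) * n := by group
        _ = (n' : G)⁻¹ * ((n : G) * y * (n : G)⁻¹) * n := by rw [e3]
        _ = (n' : G)⁻¹ * n * y := by group
    have hm : (n' : G)⁻¹ * n ∈ N1 := mul_mem (inv_mem n'.2) n.2
    have h7 := h4 _ hm.1 ((hcx _).1 hm.2) e2
    apply Subtype.ext
    exact (inv_mul_eq_one.1 h7).symm
  have hsurj : Function.Surjective f := Finite.injective_iff_surjective.1 hinj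
  have hfx : Fpf x V := by
    intro v hv hc
    obtain ⟨n, hn⟩ := hsurj ⟨n0, hn0, (hcx _).2 hn2⟩
    have e1 : (n : G) * y * (n : G)⁻¹ * y⁻¹ = n0 := congrArg Subtype.val hn
    have e2 := key (n : G) n.2 v ⟨hv, (hcx v).2 hc⟩
    rw [e1] at e2
    exact h2 n0 hn0 hn2 hn1 v hv hc e2
  have hxc := hhp1 hp hq hr hpq hpr hqr V N x hV hNq hx hxV hxN hNV (fun _ => hNa) hfx hfa
  have hfyN : Fpf y N := fun n hn hc => h4 n hn (hxc n hn) hc
  refine ⟨hfx, hxc, hfyN, ?_⟩
  intro hfyV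
  have hyc := hhp1 hp hq hs hpq hps hqs V N y hV hNq hy hyV hyN hNV (fun _ => hNa) hfyV hfa
  exact hn1 (hfyN n0 hn0 (hyc n0 hn0))

theorem pprime {p q r s : ℕ} (hp : p.Prime) (hq : q.Prime) (hr : r.Prime) (hs : s.Prime)
    (hpq : p ≠ q) (hpr : p ≠ r) (hps : p ≠ s) (hqr : q ≠ r) (hqs : q ≠ s) (hrs : r ≠ s)
    (V N : Subgroup G) (x y : G) (hV : Cfsg.IsElementaryAbelian p V) (hNq : IsPGroup q N)
    (hNa : ∀ a ∈ N, ∀ b ∈ N, Commute a b) (hN1 : N ≠ ⊥) (hNV : N ≤ normalizer (V : Set G))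
    (hfa : ∀ n ∈ N, (∀ v ∈ V, Commute n v) → n = 1)
    (hxV : x ∈ normalizer (V : Set G)) (hyV : y ∈ normalizer (V : Set G))
    (hxN : x ∈ normalizer (N : Set G)) (hyN : y ∈ normalizer (N : Set G))
    (hx : orderOf x = r) (hy : orderOf y = s) (hxy : Commute x y)
    (h1 : ∀ v ∈ V, Commute x v → Commute y v → v = 1)
    (h2 : ∀ n ∈ N, Commute x n → n ≠ 1 → ∀ v ∈ V, Commute x v → Commute n v → v = 1)
    (h3 : ∀ n ∈ N, Commute y n → n ≠ 1 → ∀ v ∈ V, Commute y v → Commute n v → v = 1)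
    (h4 : ∀ n ∈ N, Commute x n → Commute y n → n = 1) :
    (Fpf x V ∧ (∀ n ∈ N, Commute x n) ∧ Fpf y N ∧ ¬ Fpf y V) ∨
      (Fpf y V ∧ (∀ n ∈ N, Commute y n) ∧ Fpf x N ∧ ¬ Fpf x V) := by
  classical
  by_cases c1 : ∃ n ∈ N, n ≠ 1 ∧ Commute x n
  · obtain ⟨n, hn, hn1, hn2⟩ := c1
    exact Or.inl (pp_aux hp hq hr hs hpq hpr hps hqr hqs V N x y hV hNq hNa hNV hfa hxV hyV hxN
      hyN hx hy hxy h1 h2 h4 n hn hn1 hn2)
  by_cases c2 : ∃ n ∈ N, n ≠ 1 ∧ Commute y n
  · obtain ⟨n, hn, hn1, hn2⟩ := c2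
    exact Or.inr (pp_aux hp hq hs hr hpq hps hpr hqs hqr V N y x hV hNq hNa hNV hfa hyV hxV hyN
      hxN hy hx hxy.symm (fun v hv a b => h1 v hv b a) h3 (fun n hn a b => h4 n hn b a) n hn hn1 hn2)
  exfalso
  have hfxN : ∀ n ∈ N, Commute x n → n = 1 := fun n hn hc => by
    by_contra h; exact c1 ⟨n, hn, h, hc⟩
  have hfyN : ∀ n ∈ N, Commute y n → n = 1 := fun n hn hc => by
    by_contra h; exact c2 ⟨n, hn, h, hc⟩
  apply hN1
  rw [eq_bot_iff]
  intro n hn
  rw [mem_bot]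
  apply hfa n hn
  -- the averaging lemma
  let Γ : Subgroup G := normalizer (V : Set G)
  letI : CommGroup V := { (inferInstance : Group V) with mul_comm := hV.1.is_comm.comm }
  letI : MulDistribMulAction Γ V := MulDistribMulAction.compHom V V.normalizerMonoidHom
  have hact : ∀ (g : Γ) (v : V), ((g • v : V) : G) = (g : G) * v * (g : G)⁻¹ := fun g v => rfl
  let b : Γ := ⟨x * y, mul_mem hxV hyV⟩
  have hbpow : ∀ i : ℕ, ((b ^ i : Γ) : G) = x ^ i * y ^ i := by
    intro i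
    rw [SubgroupClass.coe_pow]
    exact hxy.mul_pow i
  have main := avg (Γ := Γ) (M := V) (N.subgroupOf Γ) b (r * s) (Nat.mul_pos hr.pos hs.pos) ?_ ?_ ?_ ?_ ?_
  · intro v hv
    have h := main ⟨n, hNV hn⟩ hn ⟨v, hv⟩
    have h' : n * v * n⁻¹ = v := by
      have := congrArg (Subtype.val : V → G) h
      rw [hact] at this
      exact this
    exact mul_inv_eq_iff_eq_mul.1 h'
  · apply Subtype.ext
    rw [hbpow, pow_mul, mul_comm r s, pow_mul, ← hx, pow_orderOf_eq_one, ← hy, pow_orderOf_eq_one]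
    simp
  · rintro ⟨m, hmΓ⟩ hm
    show x * y * m * (x * y)⁻¹ ∈ N
    have := (mem_normalizer_iff.1 (mul_mem hxN hyN) m).1 hm
    exact this
  · rintro i hi0 hi ⟨m, hmΓ⟩ hm hc
    apply Subtype.ext
    show m = 1
    have hc' : Commute (x ^ i * y ^ i) m := by
      have := congrArg (Subtype.val : Γ → G) hc
      rw [Subgroup.coe_mul, Subgroup.coe_mul, hbpow] at this
      exact this
    have hcp : ∀ k : ℕ, Commute (x ^ (i * k) * y ^ (i * k)) m := by
      intro k
      have := hc'.pow_left k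
      rw [((hxy.pow_pow i i)).mul_pow, ← pow_mul, ← pow_mul] at this
      exact this
    by_cases hri : r ∣ i
    · -- then s does not divide i
      have hsi : ¬ s ∣ i := by
        intro hsi
        have := Nat.Coprime.mul_dvd_of_dvd_of_dvd ((Nat.coprime_primes hr hs).2 hrs) hri hsi
        exact absurd (Nat.le_of_dvd hi0 this) (not_le.2 hi)
      have h5 := hcp r
      have h6 : x ^ (i * r) = 1 := by
        rw [mul_comm, pow_mul, ← hx, pow_orderOf_eq_one, one_pow]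
      rw [h6, one_mul] at h5
      apply hfyN m hm
      refine commute_of_zpowers (pow_mem (mem_zpowers y) _) (by rw [hy]; exact hs) ?_ h5
      intro h7
      have h8 := orderOf_dvd_of_pow_eq_one h7
      rw [hy] at h8
      rcases hs.dvd_mul.1 h8 with h9 | h9
      · exact hsi h9
      · exact hrs ((Nat.prime_dvd_prime_iff_eq hs hr).1 h9).symm
    · have h5 := hcp s
      have h6 : y ^ (i * s) = 1 := by
        rw [mul_comm, pow_mul, ← hy, pow_orderOf_eq_one, one_pow]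
      rw [h6, mul_one] at h5
      apply hfxN m hm
      refine commute_of_zpowers (pow_mem (mem_zpowers x) _) (by rw [hx]; exact hr) ?_ h5
      intro h7
      have h8 := orderOf_dvd_of_pow_eq_one h7
      rw [hx] at h8
      rcases hr.dvd_mul.1 h8 with h9 | h9
      · exact hri h9
      · exact hrs ((Nat.prime_dvd_prime_iff_eq hr hs).1 h9)
  · intro v hv
    have h5 : x * y * (v : G) * (x * y)⁻¹ = v := by
      have := congrArg (Subtype.val : V → G) hv
      rw [hact] at this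
      exact this
    have h6 : Commute (x * y) (v : G) := mul_inv_eq_iff_eq_mul.1 h5
    have h7 : ∀ k : ℕ, Commute (x ^ k * y ^ k) (v : G) := by
      intro k
      rw [← hxy.mul_pow]
      exact h6.pow_left k
    have h8 : Commute x (v : G) := by
      have := h7 s
      rw [show y ^ s = 1 by rw [← hy, pow_orderOf_eq_one], mul_one] at this
      refine commute_of_zpowers (pow_mem (mem_zpowers x) _) (by rw [hx]; exact hr) ?_ this
      intro h9
      have h10 := orderOf_dvd_of_pow_eq_one h9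
      rw [hx] at h10
      exact hrs ((Nat.prime_dvd_prime_iff_eq hr hs).1 h10)
    have h9 : Commute y (v : G) := by
      have := h7 r
      rw [show x ^ r = 1 by rw [← hx, pow_orderOf_eq_one], one_mul] at this
      refine commute_of_zpowers (pow_mem (mem_zpowers y) _) (by rw [hy]; exact hs) ?_ this
      intro h9
      have h10 := orderOf_dvd_of_pow_eq_one h9
      rw [hy] at h10
      exact hrs ((Nat.prime_dvd_prime_iff_eq hs hr).1 h10).symm
    exact Subtype.ext (h1 _ v.2 h8 h9)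
  · intro v
    have h5 : orderOf v ∣ p := orderOf_dvd_of_pow_eq_one (Subtype.ext (hV.2 _ v.2))
    have := Fact.mk hq
    obtain ⟨k, hk⟩ := IsPGroup.iff_card.1 hNq
    have h6 : Nat.card (N.subgroupOf Γ) = q ^ k := by
      rw [← hk]
      exact Nat.card_congr (Subgroup.subgroupOfEquivOfLe hNV).toEquiv
    rw [h6]
    exact Nat.Coprime.coprime_dvd_left h5
      (Nat.Coprime.pow_right k ((Nat.coprime_primes hp hq).2 hpq))

end H88.F4
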