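import Cfsg.Agent.Lib.H88.F4g

set_option autoImplicit false

/-! S3814: PA, step g. -/

namespace H88.F4

open Subgroup

universe u

variable {G : Type u} [Group G] [Finite G]

theorem cyc_uniq {q : ℕ} (hq : q.Prime) (Q : Subgroup G) (hQ : IsCyclic Q) (n z : G)
    (hn : n ∈ Q) (hz : z ∈ Q) (hno : orderOf n = q) (hzq : z ^ q = 1) : z ∈ zpowers n := by
  classical
  haveI := Fintype.ofFinite Q
  have h1 := IsCyclic.card_pow_eq_one_le (α := Q) (n := q) hq.pos
  let S : Finset Q := Finset.univ.filter (fun a : Q => a ^ q = 1)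
  let Z : Finset Q := Finset.univ.filter (fun a : Q => (a : G) ∈ zpowers n)
  have hZS : Z ⊆ S := by
    intro a ha
    rw [Finset.mem_filter] at ha ⊢
    refine ⟨ha.1, Subtype.ext ?_⟩
    obtain ⟨j, hj⟩ := mem_zpowers_iff.1 ha.2
    show (a : G) ^ q = 1
    rw [← hj, ← zpow_natCast, ← zpow_mul, mul_comm, zpow_mul, zpow_natCast, ← hno,
      pow_orderOf_eq_one, one_zpow]
  have hZc : Z.card = q := by
    have h2 : Nat.card (zpowers n) = q := by rw [Nat.card_zpowers, hno]
    have h3 : Nat.card (zpowers n) = Nat.card {a : Q // (a : G) ∈ zpowers n} := by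
      apply Nat.card_congr
      exact
        { toFun := fun a => ⟨⟨a.1, (zpowers_le.2 hn) a.2⟩, a.2⟩
          invFun := fun a => ⟨a.1.1, a.2⟩
          left_inv := fun a => rfl
          right_inv := fun a => rfl }
    rw [← h2, h3, Nat.card_eq_fintype_card, Fintype.card_subtype]
  have hEq : Z = S := Finset.eq_of_subset_of_card_le hZS (by rw [hZc]; exact h1)
  have : (⟨z, hz⟩ : Q) ∈ S := by
    rw [Finset.mem_filter]
    exact ⟨Finset.mem_univ _, Subtype.ext hzq⟩
  rw [← hEq, Finset.mem_filter] at this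
  exact this.2

theorem cyc_cent {q r : ℕ} (hq : q.Prime) (hr : r.Prime) (hqr : q ≠ r) (Q : Subgroup G)
    (hQ : IsCyclic Q) (hQq : IsPGroup q Q) (n x : G) (hn : n ∈ Q) (hno : orderOf n = q)
    (hxo : orderOf x = r) (hxQ : x ∈ normalizer (Q : Set G)) (hxn : Commute x n) :
    ∀ w ∈ Q, Commute x w := by
  have hab : ∀ a ∈ Q, ∀ b ∈ Q, a * b = b * a := by
    intro a ha b hb
    haveI := hQ
    letI := IsCyclic.commGroup (α := Q)
    exact congrArg (Subtype.val : Q → G) (mul_comm (⟨a, ha⟩ : Q) ⟨b, hb⟩)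
  have main : ∀ k : ℕ, ∀ w ∈ Q, w ^ q ^ k = 1 → Commute x w := by
    intro k
    induction k with
    | zero =>
      intro w hw h1
      rw [pow_zero, pow_one] at h1
      rw [h1]; exact Commute.one_right _
    | succ k ih =>
      intro w hw h1
      have h2 : Commute x (w ^ q) := ih _ (pow_mem hw q) (by rw [← pow_mul, ← pow_succ']; exact h1)
      have hxw : x * w * x⁻¹ ∈ Q := (mem_normalizer_iff.1 hxQ w).1 hw
      set z := x * w * x⁻¹ * w⁻¹ with hz
      have hzQ : z ∈ Q := mul_mem hxw (inv_mem hw)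
      have hzq : z ^ q = 1 := by
        have hc : Commute (x * w * x⁻¹) w⁻¹ := hab _ hxw _ (inv_mem hw)
        rw [hz, hc.mul_pow, conj_pow, h2.eq, inv_pow]
        group
      have hzn := cyc_uniq hq Q hQ n z hn hzQ hno hzq
      have hxz : Commute x z := by
        obtain ⟨j, hj⟩ := mem_zpowers_iff.1 hzn
        rw [← hj]; exact hxn.zpow_right j
      have h3 : x * w * x⁻¹ = z * w := by rw [hz]; group
      have h4 : ∀ i : ℕ, x ^ i * w * (x ^ i)⁻¹ = z ^ i * w := by
        intro i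
        induction i with
        | zero => simp
        | succ i ih2 =>
          calc x ^ (i + 1) * w * (x ^ (i + 1))⁻¹ = x * (x ^ i * w * (x ^ i)⁻¹) * x⁻¹ := by
                rw [pow_succ']; group
            _ = x * (z ^ i * w) * x⁻¹ := by rw [ih2]
            _ = (x * z ^ i) * w * x⁻¹ := by group
            _ = (z ^ i * x) * w * x⁻¹ := by rw [(hxz.pow_right i).eq]
            _ = z ^ i * (x * w * x⁻¹) := by group
            _ = z ^ i * (z * w) := by rw [h3]
            _ = z ^ (i + 1) * w := by rw [pow_succ]; group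
      have h5 := h4 r
      rw [show x ^ r = 1 by rw [← hxo, pow_orderOf_eq_one]] at h5
      have h6 : z ^ r = 1 := by
        have : w = z ^ r * w := by simpa using h5
        exact (mul_eq_right.1 this.symm)
      have h7 : orderOf z = 1 := Nat.eq_one_of_dvd_coprimes ((Nat.coprime_primes hq hr).2 hqr)
        (orderOf_dvd_of_pow_eq_one hzq) (orderOf_dvd_of_pow_eq_one h6)
      have h8 : z = 1 := orderOf_eq_one_iff.1 h7
      rw [h8, one_mul] at h3
      exact mul_inv_eq_iff_eq_mul.1 h3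
  intro w hw
  obtain ⟨k, hk⟩ := hQq ⟨w, hw⟩
  exact main k w hw (congrArg (Subtype.val : Q → G) hk)

/-- the largest `K`-normal `t`-subgroup -/
theorem join_normal {t : ℕ} (ht : t.Prime) (K A B : Subgroup G) (hA : A ≤ K) (hB : B ≤ K)
    (hKA : K ≤ normalizer (A : Set G)) (hKB : K ≤ normalizer (B : Set G)) (hAt : IsPGroup t A)
    (hBt : IsPGroup t B) : A ⊔ B ≤ K ∧ K ≤ normalizer ((A ⊔ B : Subgroup G) : Set G) ∧
      IsPGroup t (A ⊔ B : Subgroup G) := by
  haveI := Fact.mk ht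
  refine ⟨sup_le hA hB, ?_, ?_⟩
  · have key : ∀ k ∈ K, ∀ w ∈ A ⊔ B, k * w * k⁻¹ ∈ A ⊔ B := by
      intro k hk w hw
      have h1 : w ∈ ((A ⊔ B : Subgroup G) : Set G) := hw
      rw [coe_mul_of_right_le_normalizer_left A B (hB.trans hKA)] at h1
      obtain ⟨a, ha, b, hb, rfl⟩ := h1
      have e : k * (a * b) * k⁻¹ = (k * a * k⁻¹) * (k * b * k⁻¹) := by group
      show k * (a * b) * k⁻¹ ∈ A ⊔ B
      rw [e]
      exact mul_mem (mem_sup_left ((mem_normalizer_iff.1 (hKA hk) a).1 ha))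
        (mem_sup_right ((mem_normalizer_iff.1 (hKB hk) b).1 hb))
    intro k hk
    rw [mem_normalizer_iff]
    intro w
    constructor
    · exact key k hk w
    · intro hw
      have := key k⁻¹ (inv_mem hk) _ hw
      simpa [mul_assoc] using this
  · exact IsPGroup.to_sup_of_normal_left' hAt hBt (hB.trans hKA)

theorem pag {p : ℕ} {τ : Finset ℕ} {V K : Subgroup G} (h : Env p τ V K) {q r : ℕ} (hq : q ∈ τ)
    (hr : r ∈ τ) (hqr : q ≠ r) (n : G) (hn : n ∈ K) (hno : orderOf n = q)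
    (hKn : K ≤ normalizer (zpowers n : Set G))
    (hQ : ∀ Q ≤ K, K ≤ normalizer (Q : Set G) → IsPGroup q Q → IsCyclic Q)
    (hR : ∀ R ≤ K, K ≤ normalizer (R : Set G) → IsPGroup r R → IsCyclic R)
    (htriv : ∀ t : ℕ, t.Prime → t ≠ q → t ≠ r → ∀ P ≤ K, K ≤ normalizer (P : Set G) →
      IsPGroup t P → P = ⊥) : r ∣ q - 1 := by
  classical
  have hqp := (h.hτp q hq).1
  have hrp := (h.hτp r hr).1
  obtain ⟨x, hx, hxo, hxP⟩ : ∃ x ∈ K, orderOf x = r ∧ ¬ ∃ P ≤ K, K ≤ normalizer (P : Set G) ∧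
      IsPGroup r P ∧ x ∈ P := by
    by_contra hcon
    push Not at hcon
    obtain ⟨x, hx, y, hy, hxo, hyo, hc, hxy⟩ := h.r2 r hr
    obtain ⟨A, hA, hKA, hAr, hxA⟩ := hcon x hx hxo
    obtain ⟨B, hB, hKB, hBr, hyB⟩ := hcon y hy hyo
    obtain ⟨h1, h2, h3⟩ := join_normal hrp K A B hA hB hKA hKB hAr hBr
    have h4 := hR _ h1 h2 h3
    exact hxy (cyc_uniq hrp _ h4 x y (mem_sup_left hxA) (mem_sup_right hyB) hxo
      (by rw [← hyo, pow_orderOf_eq_one]))
  by_cases hxn : Commute x n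
  · exfalso
    have hfc := H52.FC.fc K h.solv x hx (by rw [hxo]; exact hrp) ?_ ?_
    · obtain ⟨P, hP, hKP, hPr, hxP'⟩ := hfc
      rw [hxo] at hPr
      exact hxP ⟨P, hP, hKP, hPr, hxP'⟩
    · intro t ht htr P hP hKP hPt w hw
      rw [hxo] at htr
      by_cases htq : t = q
      · subst htq
        obtain ⟨h1, h2, h3⟩ := join_normal ht K P (zpowers n) hP (zpowers_le.2 hn) hKP hKn hPt
          (zp_pgroup ht hno)
        exact cyc_cent ht hrp hqr _ (hQ _ h1 h2 h3) h3 n x (mem_sup_right (mem_zpowers n)) hno hxo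
          (h2 hx) hxn w (mem_sup_left hw)
      · have := htriv t ht htq htr P hP hKP hPt
        rw [this, mem_bot] at hw
        rw [hw]; exact Commute.one_right _
    · intro P hP hKP hPr
      rw [hxo] at hPr
      exact hR P hP hKP hPr
  · exact H72.PYa.dvd_sub_one hqp hrp hno hxo ((mem_normalizer_iff.1 (hKn hx) n).1 (mem_zpowers n)) hxn

theorem pa {p : ℕ} {τ : Finset ℕ} {V K : Subgroup G} (h : Env p τ V K)
    (hcyc : ∀ t ∈ τ, ∀ A ≤ K, K ≤ normalizer (A : Set G) → IsPGroup t A →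
      (∀ a ∈ A, ∀ b ∈ A, Commute a b) → ¬ R2 t A) (q r : ℕ) (hq : q ∈ τ) (hr : r ∈ τ)
    (hqr : q ≠ r) (P R : Subgroup G) (hP : P ≤ K) (hKP : K ≤ normalizer (P : Set G))
    (hPq : IsPGroup q P) (hP1 : P ≠ ⊥) (hR : R ≤ K) (hKR : K ≤ normalizer (R : Set G))
    (hRr : IsPGroup r R) (hR1 : R ≠ ⊥) : False :=
  pa_of h (fun {q r} hq hr hqr n hn hno hKn hQ hR ht => pag h hq hr hqr n hn hno hKn hQ hR ht)
    hcyc q r hq hr hqr P R hP hKP hPq hP1 hR hKR hRr hR1

end H88.F4
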