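import Cfsg.Agent.Lib.H88.F4d
import Cfsg.Agent.Lib.H88.F4h
import Cfsg.Agent.Lib.H6.FT345
import Cfsg.Agent.Lib.H72.PY
import Cfsg.Agent.Lib.H52.FC1

set_option autoImplicit false

/-! S3814: PB. -/

namespace H88.F4

open Subgroup H6.FT

universe u

variable {G : Type u} [Group G] [Finite G]

theorem ea_pgroup {t : ℕ} {N : Subgroup G} (h : Cfsg.IsElementaryAbelian t N) : IsPGroup t N := by
  rintro ⟨a, ha⟩
  refine ⟨1, ?_⟩
  apply Subtype.ext
  simpa using h.2 a ha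

theorem ea_order {t : ℕ} (ht : t.Prime) {N : Subgroup G} (h : Cfsg.IsElementaryAbelian t N) {a : G}
    (ha : a ∈ N) (h1 : a ≠ 1) : orderOf a = t := by
  haveI := Fact.mk ht
  exact orderOf_eq_prime (h.2 a ha) h1

theorem dvd_of_ne {t : ℕ} (ht : t.Prime) {N : Subgroup G} (h : IsPGroup t N) (h1 : N ≠ ⊥) :
    t ∣ Nat.card N := by
  haveI := Fact.mk ht
  obtain ⟨k, hk⟩ := IsPGroup.iff_card.1 h
  rw [hk]
  apply dvd_pow_self
  rintro rfl
  apply h1
  rw [pow_zero] at hk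
  exact (Subgroup.card_eq_one).1 hk

theorem env_false {p : ℕ} {τ : Finset ℕ} {V K : Subgroup G} (h : Env p τ V K) : False := by
  classical
  have hcyc : ∀ t ∈ τ, ∀ A ≤ K, K ≤ normalizer (A : Set G) → IsPGroup t A →
      (∀ a ∈ A, ∀ b ∈ A, Commute a b) → ¬ R2 t A := fun t ht A hA hKA hAq hAa hA2 =>
    H72.PY.py h t ht A hA hKA hAq hAa hA2
  obtain ⟨a, b, c, hab, hac, hbc, hτ⟩ := Finset.card_eq_three.1 h.hτ
  have hK1 : K ≠ ⊥ := by
    intro hK
    obtain ⟨x, hx, y, hy, hxo, hyo, hc, -⟩ := h.r2 a (by rw [hτ]; simp)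
    rw [hK, mem_bot] at hx
    rw [hx, orderOf_one] at hxo
    exact (h.hτp a (by rw [hτ]; simp)).1.one_lt.ne hxo
  obtain ⟨N, hNK, hN1, hKN, ⟨q, hqp, hNe⟩, -⟩ := minn K K h.solv le_rfl le_normalizer hK1
  have hNq := ea_pgroup hNe
  have hqτ : q ∈ τ := h.card q hqp ((dvd_of_ne hqp hNq hN1).trans (Subgroup.card_dvd_of_le hNK))
  have hNa : ∀ a ∈ N, ∀ b ∈ N, Commute a b := by
    intro a ha b hb
    have := hNe.1.is_comm.comm ⟨a, ha⟩ ⟨b, hb⟩
    exact congrArg (Subtype.val : N → G) this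
  have hNr := (not_r2 hqp N hNq (hcyc q hqτ N hNK hKN hNq hNa)).1
  by_cases hex : ∃ r ∈ τ, r ≠ q ∧ ∃ R : Subgroup G, R ≤ K ∧ K ≤ normalizer (R : Set G) ∧
      IsPGroup r R ∧ R ≠ ⊥
  · obtain ⟨r, hrτ, hrq, R, hR, hKR, hRr, hR1⟩ := hex
    exact pa h hcyc q r hqτ hrτ hrq.symm N R hNK hKN hNq hN1 hR hKR hRr hR1
  push Not at hex
  have htriv : ∀ t : ℕ, t.Prime → t ≠ q → ∀ P ≤ K, K ≤ normalizer (P : Set G) → IsPGroup t P →
      P = ⊥ := by
    intro t ht htq P hP hKP hPt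
    by_contra hP1
    have htτ : t ∈ τ := h.card t ht ((dvd_of_ne ht hPt hP1).trans (Subgroup.card_dvd_of_le hP))
    exact hP1 (hex t htτ htq P hP hKP hPt)
  have hordq : ∀ n ∈ N, n ≠ 1 → orderOf n = q := fun n hn hn1 => ea_order hqp hNe hn hn1
  have core : ∀ r ∈ τ, ∀ x ∈ K, orderOf x = r → r ≠ q → Fpf x V →
      ∀ y ∈ K, Fpf y N → False := by
    intro r hr x hx hxo hrq hfx y hy hfy
    obtain ⟨hrp, hrp'⟩ := h.hτp r hr
    obtain ⟨⟨n, hn⟩, hn1'⟩ := Subgroup.ne_bot_iff_exists_ne_one.1 hN1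
    have hn1 : n ≠ 1 := fun h => hn1' (Subtype.ext h)
    have hq2 : q ≠ 2 := by
      intro hq2
      have h1 : y * n * y⁻¹ ∈ N := (mem_normalizer_iff.1 (hKN hy) n).1 hn
      have h2 : y * n * y⁻¹ ≠ 1 := by
        intro h3
        apply hn1
        have : n = y⁻¹ * (y * n * y⁻¹) * y := by group
        rw [this, h3]; group
      have h3 := hNr n hn _ h1 (hordq n hn hn1) (hordq _ h1 h2)
      have h4 : y * n * y⁻¹ = n := by
        obtain ⟨j, hj⟩ := mem_zpowers_iff.1 h3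
        have h5 : n ^ (2 : ℤ) = 1 := by
          have := hNe.2 n hn
          rw [hq2] at this
          exact_mod_cast this
        rcases Int.even_or_odd' j with ⟨k, hk | hk⟩
        · exfalso
          apply h2
          rw [← hj, hk, zpow_mul, h5, one_zpow]
        · rw [← hj, hk, zpow_add, zpow_mul, h5, one_zpow, one_mul, zpow_one]
      exact hn1 (hfy n hn (mul_inv_eq_iff_eq_mul.1 h4))
    have hall : ∀ t : ℕ, t.Prime → ∀ P : Subgroup G, P ≤ K → K ≤ normalizer (P : Set G) →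
        IsPGroup t P → ∀ w ∈ P, Commute x w := by
      intro t ht P hP hKP hPt w hw
      by_cases htq : t = q
      · subst htq
        exact hhp1 h.hp ht hrp (h.hτp t hqτ).2.symm hrp'.symm hrq.symm V P x h.ea hPt hxo
          (h.nrm hx) (hKP hx) (hP.trans h.nrm) (fun h2 => absurd h2 hq2) hfx
          (fun y hy hc => h.faith y (hP hy) hc) w hw
      · have := htriv t ht htq P hP hKP hPt
        rw [this, mem_bot] at hw
        rw [hw]; exact Commute.one_right _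
    obtain ⟨P, hP, hKP, hPx, hxP⟩ := H52.FC.fit K h.solv x hx (by rw [hxo]; exact hrp) hall
    rw [hxo] at hPx
    have := htriv r hrp hrq P hP hKP hPx
    rw [this, mem_bot] at hxP
    rw [hxP, orderOf_one] at hxo
    exact hrp.one_lt.ne hxo
  -- pick r s
  obtain ⟨r, hr, s, hs, hrq, hsq, hrs⟩ : ∃ r ∈ τ, ∃ s ∈ τ, r ≠ q ∧ s ≠ q ∧ r ≠ s := by
    rw [hτ] at hqτ ⊢
    simp only [Finset.mem_insert, Finset.mem_singleton] at hqτ
    rcases hqτ with rfl | rfl | rfl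
    · exact ⟨b, by simp, c, by simp, hab.symm, hac.symm, hbc⟩
    · exact ⟨a, by simp, c, by simp, hab, hbc.symm, hac⟩
    · exact ⟨a, by simp, b, by simp, hac, hbc, hab⟩
  obtain ⟨hrp, hrp'⟩ := h.hτp r hr
  obtain ⟨hsp, hsp'⟩ := h.hτp s hs
  obtain ⟨x, hx, y, hy, hxo, hyo, hxy⟩ := h.J r hr s hs hrs
  have key := pprime h.hp hqp hrp hsp (h.hτp q hqτ).2.symm hrp'.symm hsp'.symm hrq.symm hsq.symm hrs
    V N x y h.ea hNq hNa hN1 (hNK.trans h.nrm) (fun n hn hc => h.faith n (hNK hn) hc)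
    (h.nrm hx) (h.nrm hy) (hKN hx) (hKN hy) hxo hyo hxy
    (fun v hv h1 h2 => h.pair r hr s hs hrs x hx y hy hxo hyo hxy v hv h1 h2)
    (fun n hn hc hn1 v hv h1 h2 => h.pair r hr q hqτ hrq x hx n (hNK hn) hxo (hordq n hn hn1) hc v hv h1 h2)
    (fun n hn hc hn1 v hv h1 h2 => h.pair s hs q hqτ hsq y hy n (hNK hn) hyo (hordq n hn hn1) hc v hv h1 h2)
    (fun n hn h1 h2 => by
      by_contra hn1
      exact h.nt q hqτ r hr s hs hrq.symm hrs hsq.symm n (hNK hn) x hx y hy (hordq n hn hn1) hxo hyo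
        h1.symm hxy h2.symm)
  rcases key with ⟨k1, _, k2, _⟩ | ⟨k1, _, k2, _⟩
  · exact core r hr x hx hxo hrq k1 y hy k2
  · exact core s hs y hy hyo hsq k1 x hx k2

end H88.F4
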