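import Cfsg.Agent.Lib.H88.F4e
import Cfsg.Agent.Lib.H11.P0
import Cfsg.Agent.Lib.H36.PX0

set_option autoImplicit false

/-! S3814: assembly. -/

namespace H88.F4

open Subgroup H6.FT

universe u

variable {G : Type u} [Group G] [Finite G]

/-- transfer of a commuting pair to a Hall subgroup -/
theorem J_transfer {a b : ℕ} (ha : a.Prime) (hb : b.Prime) (_hab : a ≠ b) (H L : Subgroup G)
    (π : Set ℕ) (haπ : a ∈ π) (hbπ : b ∈ π)
    (hL : ∀ P : Subgroup G, P ≤ H → (∀ t : ℕ, t.Prime → t ∣ Nat.card P → t ∈ π) →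
      ∃ g ∈ H, ∀ x ∈ P, g * x * g⁻¹ ∈ L)
    (g : G) (hg : g ∈ H) (hgo : orderOf g = a * b) :
    ∃ g' ∈ L, orderOf g' = a * b := by
  obtain ⟨k, hk, hkL⟩ := hL (zpowers g) (zpowers_le.2 hg) (by
    intro t ht htd
    rw [Nat.card_zpowers, hgo] at htd
    rcases ht.dvd_mul.1 htd with h | h
    · rwa [(Nat.prime_dvd_prime_iff_eq ht ha).1 h]
    · rwa [(Nat.prime_dvd_prime_iff_eq ht hb).1 h])
  refine ⟨k * g * k⁻¹, hkL g (mem_zpowers g), ?_⟩
  rw [← hgo]
  exact orderOf_injective (MulAut.conj k).toMonoidHom (MulAut.conj k).injective g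

theorem split_order {a b : ℕ} (ha : a.Prime) (hb : b.Prime) (L : Subgroup G) (g : G) (hg : g ∈ L)
    (hgo : orderOf g = a * b) : ∃ x ∈ L, ∃ y ∈ L, orderOf x = a ∧ orderOf y = b ∧ Commute x y := by
  refine ⟨g ^ b, pow_mem hg b, g ^ a, pow_mem hg a, ?_, ?_, Commute.pow_pow_self g b a⟩
  · rw [orderOf_pow_of_dvd hb.ne_zero (by rw [hgo]; exact dvd_mul_left b a), hgo]
    exact Nat.mul_div_cancel _ hb.pos
  · rw [orderOf_pow_of_dvd ha.ne_zero (by rw [hgo]; exact dvd_mul_right a b), hgo]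
    exact Nat.mul_div_cancel_left _ ha.pos

theorem order_of_pair {a b : ℕ} (ha : a.Prime) (hb : b.Prime) (hab : a ≠ b) (x y : G)
    (hx : orderOf x = a) (hy : orderOf y = b) (h : Commute x y) : orderOf (x * y) = a * b := by
  rw [h.orderOf_mul_eq_mul_orderOf_of_coprime (by rw [hx, hy]; exact (Nat.coprime_primes ha hb).2 hab),
    hx, hy]

theorem order_of_triple {a b c : ℕ} (ha : a.Prime) (hb : b.Prime) (hc : c.Prime) (hab : a ≠ b)
    (hbc : b ≠ c) (hac : a ≠ c) (x y z : G) (hx : orderOf x = a) (hy : orderOf y = b)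
    (hz : orderOf z = c) (h1 : Commute x y) (h2 : Commute y z) (h3 : Commute x z) :
    orderOf (x * y * z) = a * b * c := by
  have h4 := order_of_pair ha hb hab x y hx hy h1
  rw [(h3.mul_left h2).orderOf_mul_eq_mul_orderOf_of_coprime, h4, hz]
  rw [h4, hz]
  exact Nat.Coprime.mul_left ((Nat.coprime_primes ha hc).2 hac) ((Nat.coprime_primes hb hc).2 hbc)

theorem pair_pgroup {t : ℕ} (x y : G) (hx : orderOf x = t) (hy : orderOf y = t)
    (h : Commute x y) : IsPGroup t (closure {x, y} : Subgroup G) := by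
  have hc : ∀ g ∈ closure ({x, y} : Set G), Commute g x ∧ Commute g y := by
    intro g hg
    induction hg using closure_induction with
    | mem g hg =>
      rcases hg with rfl | rfl
      · exact ⟨Commute.refl _, h⟩
      · exact ⟨h.symm, Commute.refl _⟩
    | one => exact ⟨Commute.one_left _, Commute.one_left _⟩
    | mul a b _ _ iha ihb => exact ⟨iha.1.mul_left ihb.1, iha.2.mul_left ihb.2⟩
    | inv a _ iha => exact ⟨iha.1.inv_left, iha.2.inv_left⟩
  have hc2 : ∀ g ∈ closure ({x, y} : Set G), ∀ k ∈ closure ({x, y} : Set G), Commute g k := by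
    intro g hg k hk
    induction hk using closure_induction with
    | mem k hk =>
      rcases hk with rfl | rfl
      · exact (hc g hg).1
      · exact (hc g hg).2
    | one => exact Commute.one_right _
    | mul a b _ _ iha ihb => exact iha.mul_right ihb
    | inv a _ iha => exact iha.inv_right
  have hc3 : ∀ g ∈ closure ({x, y} : Set G), g ^ t = 1 := by
    intro g hg
    induction hg using closure_induction with
    | mem g hg =>
      rcases hg with rfl | rfl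
      · rw [← hx, pow_orderOf_eq_one]
      · rw [← hy, pow_orderOf_eq_one]
    | one => exact one_pow _
    | mul a b ha hb iha ihb => rw [(hc2 a ha b hb).mul_pow, iha, ihb, one_mul]
    | inv a _ iha => rw [inv_pow, iha, inv_one]
  rintro ⟨g, hg⟩
  refine ⟨1, Subtype.ext ?_⟩
  simpa using hc3 g hg

theorem R2_transfer {t : ℕ} (ht : t.Prime) (H L : Subgroup G) (π : Set ℕ) (htπ : t ∈ π)
    (hL : ∀ P : Subgroup G, P ≤ H → (∀ t : ℕ, t.Prime → t ∣ Nat.card P → t ∈ π) →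
      ∃ g ∈ H, ∀ x ∈ P, g * x * g⁻¹ ∈ L) (h : R2 t H) : R2 t L := by
  obtain ⟨x, hx, y, hy, hxo, hyo, hc, hn⟩ := h
  haveI := Fact.mk ht
  have hP := pair_pgroup x y hxo hyo hc
  obtain ⟨k, hk, hkL⟩ := hL (closure {x, y}) ((closure_le _).2 (by
      rintro g (rfl | rfl)
      · exact hx
      · exact hy)) (by
    intro u hu hud
    obtain ⟨n, hn⟩ := IsPGroup.iff_card.1 hP
    rw [hn] at hud
    rwa [(Nat.prime_dvd_prime_iff_eq hu ht).1 (hu.dvd_of_dvd_pow hud)])
  refine ⟨k * x * k⁻¹, hkL x (subset_closure (by simp)), k * y * k⁻¹,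
    hkL y (subset_closure (by simp)), ?_, ?_, ?_, ?_⟩
  · rw [← hxo]; exact orderOf_injective (MulAut.conj k).toMonoidHom (MulAut.conj k).injective x
  · rw [← hyo]; exact orderOf_injective (MulAut.conj k).toMonoidHom (MulAut.conj k).injective y
  · show k * x * k⁻¹ * (k * y * k⁻¹) = k * y * k⁻¹ * (k * x * k⁻¹)
    calc k * x * k⁻¹ * (k * y * k⁻¹) = k * (x * y) * k⁻¹ := by group
      _ = k * (y * x) * k⁻¹ := by rw [hc.eq]
      _ = k * y * k⁻¹ * (k * x * k⁻¹) := by group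
  · intro hm
    apply hn
    obtain ⟨j, hj⟩ := mem_zpowers_iff.1 hm
    refine mem_zpowers_iff.2 ⟨j, ?_⟩
    rw [conj_zpow] at hj
    exact mul_left_cancel (mul_right_cancel hj)

theorem px {p q r s : ℕ} (hp : p.Prime) (hq : q.Prime) (hr : r.Prime) (hs : s.Prime)
    (hrs : r ≠ s) (hpr : p ≠ r) (hps : p ≠ s) (hqr : q ≠ r) (hqs : q ≠ s) (B V N : Subgroup G)
    (hB : Group.IsSolvable B) (hc : ∀ t : ℕ, t.Prime → t ∣ Nat.card B → t = r ∨ t = s)
    (hV : Cfsg.IsElementaryAbelian p V) (hN : Cfsg.IsElementaryAbelian q N)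
    (hBV : B ≤ normalizer (V : Set G)) (hBN : B ≤ normalizer (N : Set G)) (hV1 : V ≠ ⊥)
    (hN1 : N ≠ ⊥) (hVm : ∀ W ≤ V, W ≠ ⊥ → B ≤ normalizer (W : Set G) → W = V)
    (hNm : ∀ W ≤ N, W ≠ ⊥ → B ≤ normalizer (W : Set G) → W = N)
    (t1 : ∀ x ∈ B, (orderOf x).Prime → Fpf x V ∨ Fpf x N)
    (t2 : ∀ x ∈ B, ∀ y ∈ B, orderOf x = r → orderOf y = s → Commute x y →
      (∀ v ∈ V, Commute x v → Commute y v → v = 1) ∧ (∀ v ∈ N, Commute x v → Commute y v → v = 1))
    (hr2 : R2 r B) (hs2 : R2 s B) : False :=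
  H36.PX.px_of
    (fun {p q r} hp hq hr hpq hpr hqr V Q x hV hQ hx hxV hxQ hQV hex hf hfa =>
      hhp1 hp hq hr hpq hpr hqr V Q x hV hQ hx hxV hxQ hQV hex hf hfa)
    (fun {t} ht E W hE hEW hW hW1 => H6.FT.r2_fix ht E W hE hEW hW hW1)
    (fun {t} ht P hP h => H6.FT.not_r2 ht P hP h)
    (fun K D hK hD hn h1 => H6.FT.minn K D hK hD hn h1)
    (fun K hK x hx ho h hc => H52.FC.fc K hK x hx ho h hc)
    hp hq hr hs hrs hpr hps hqr hqs B V N hB hc hV hN hBV hBN hV1 hN1 hVm hNm t1 t2 hr2 hs2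

theorem main (σ : Finset ℕ) (hσ : 4 ≤ σ.card) (hprime : ∀ p ∈ σ, p.Prime)
    (h2 : ∀ p ∈ σ, ∀ q ∈ σ, p ≠ q → ∃ g : G, orderOf g = p * q)
    (h3 : ∀ p ∈ σ, ∀ q ∈ σ, ∀ r ∈ σ, p ≠ q → q ≠ r → p ≠ r → ∀ g : G, orderOf g ≠ p * q * r) :
    ¬ Group.IsSolvable G := by
  classical
  intro hs
  obtain ⟨ρ, hρσ, hρ⟩ := Finset.exists_subset_card_eq hσ
  have hρp : ∀ t ∈ ρ, t.Prime := fun t ht => hprime t (hρσ ht)
  have gnt : ∀ a ∈ ρ, ∀ b ∈ ρ, ∀ c ∈ ρ, a ≠ b → b ≠ c → a ≠ c → ∀ x y z : G,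
      orderOf x = a → orderOf y = b → orderOf z = c → Commute x y → Commute y z →
      Commute x z → False := by
    intro a ha b hb c hc hab hbc hac x y z hx hy hz h1 h2 h4
    exact h3 a (hρσ ha) b (hρσ hb) c (hρσ hc) hab hbc hac _
      (order_of_triple (hρp a ha) (hρp b hb) (hρp c hc) hab hbc hac x y z hx hy hz h1 h2 h4)
  have hsol : ∀ K : Subgroup G, Group.IsSolvable K := fun K => inferInstance
  obtain ⟨H, -, hHc, hHL⟩ := H52.FC.hall (⊤ : Subgroup G) (hsol _) (ρ : Set ℕ)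
  have hJg : ∀ a ∈ ρ, ∀ b ∈ ρ, a ≠ b → ∃ g ∈ H, orderOf g = a * b := by
    intro a ha b hb hab
    obtain ⟨g, hg⟩ := h2 a (hρσ ha) b (hρσ hb) hab
    exact J_transfer (hρp a ha) (hρp b hb) hab ⊤ H ρ ha hb hHL g (mem_top g) hg
  have hr2 := H11.P0.p0 H (hsol H) ρ hρ hρp
    (fun a ha b hb hab => by
      obtain ⟨g, hg, hgo⟩ := hJg a ha b hb hab
      exact split_order (hρp a ha) (hρp b hb) H g hg hgo)
    (fun a ha b hb c hc hab hbc hac x _ y _ z _ => gnt a ha b hb c hc hab hbc hac x y z)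
  have hH1 : H ≠ ⊥ := by
    intro hH
    obtain ⟨a, ha⟩ : ρ.Nonempty := by
      rw [← Finset.card_pos, hρ]; norm_num
    obtain ⟨x, hx, -, -, hxo, -⟩ := hr2 a ha
    rw [hH, mem_bot] at hx
    rw [hx, orderOf_one] at hxo
    exact (hρp a ha).one_lt.ne hxo
  obtain ⟨V, hVH, hV1, hHV, ⟨p, hp, hVe⟩, -⟩ := minn H H (hsol H) le_rfl le_normalizer hH1
  have hVp := ea_pgroup hVe
  have hpρ : p ∈ ρ := hHc p hp ((dvd_of_ne hp hVp hV1).trans (Subgroup.card_dvd_of_le hVH))
  obtain ⟨K, hKH, hKc, hKL⟩ := H52.FC.hall H (hsol H) ((ρ.erase p : Finset ℕ) : Set ℕ)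
  have hτρ : ∀ t ∈ ρ.erase p, t ∈ ρ := fun t ht => Finset.mem_of_mem_erase ht
  have hτp : ∀ t ∈ ρ.erase p, t ≠ p := fun t ht => Finset.ne_of_mem_erase ht
  have hKV : K ≤ normalizer (V : Set G) := hKH.trans hHV
  have hKr2 : ∀ t ∈ ρ.erase p, R2 t K := fun t ht =>
    R2_transfer (hρp t (hτρ t ht)) H K _ (by exact_mod_cast ht) hKL (hr2 t (hτρ t ht))
  have hKJ : ∀ a ∈ ρ.erase p, ∀ b ∈ ρ.erase p, a ≠ b →
      ∃ x ∈ K, ∃ y ∈ K, orderOf x = a ∧ orderOf y = b ∧ Commute x y := by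
    intro a ha b hb hab
    obtain ⟨g, hg, hgo⟩ := hJg a (hτρ a ha) b (hτρ b hb) hab
    obtain ⟨g', hg', hgo'⟩ := J_transfer (hρp a (hτρ a ha)) (hρp b (hτρ b hb)) hab H K _
      (by exact_mod_cast ha) (by exact_mod_cast hb) hKL g hg hgo
    exact split_order (hρp a (hτρ a ha)) (hρp b (hτρ b hb)) K g' hg' hgo'
  have hvo : ∀ v ∈ V, v ≠ 1 → orderOf v = p := fun v hv hv1 => ea_order hp hVe hv hv1
  by_cases hC : K ⊓ centralizer (V : Set G) = ⊥
  · -- K faithful
    refine env_false (p := p) (τ := ρ.erase p) (V := V) (K := K) ?_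
    exact
      { hp := hp
        hτ := by rw [Finset.card_erase_of_mem hpρ, hρ]
        hτp := fun t ht => ⟨hρp t (hτρ t ht), hτp t ht⟩
        solv := hsol K
        card := fun t ht htd => by exact_mod_cast hKc t ht htd
        ea := hVe
        ntriv := hV1
        nrm := hKV
        faith := fun k hk hc => by
          have : k ∈ K ⊓ centralizer (V : Set G) :=
            ⟨hk, mem_centralizer_iff.2 (fun v hv => (hc v hv).symm)⟩
          rw [hC, mem_bot] at this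
          exact this
        pair := fun a ha b hb hab x _ y _ hx hy hxy v hv h1 h2 => by
          by_contra hv1
          exact gnt a (hτρ a ha) b (hτρ b hb) p hpρ hab (hτp b hb) (hτp a ha) x y v hx hy
            (hvo v hv hv1) hxy h2 h1
        nt := fun a ha b hb c hc hab hbc hac x _ y _ z _ =>
          gnt a (hτρ a ha) b (hτρ b hb) c (hτρ c hc) hab hbc hac x y z
        r2 := hKr2
        J := hKJ }
  · -- not faithful
    have hKC : K ≤ normalizer ((K ⊓ centralizer (V : Set G) : Subgroup G) : Set G) := by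
      have key : ∀ k ∈ K, ∀ c ∈ K ⊓ centralizer (V : Set G), k * c * k⁻¹ ∈ K ⊓ centralizer (V : Set G) := by
        rintro k hk c ⟨hcK, hcV⟩
        refine ⟨K.mul_mem (K.mul_mem hk hcK) (K.inv_mem hk), mem_centralizer_iff.2 ?_⟩
        intro v hv
        have h1 : k⁻¹ * v * k ∈ V := by
          have := (mem_normalizer_iff.1 (inv_mem (hKV hk)) v).1 hv
          simpa using this
        have h2 := mem_centralizer_iff.1 hcV _ h1
        calc v * (k * c * k⁻¹) = k * ((k⁻¹ * v * k) * c) * k⁻¹ := by group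
          _ = k * (c * (k⁻¹ * v * k)) * k⁻¹ := by rw [h2]
          _ = k * c * k⁻¹ * v := by group
      intro k hk
      rw [mem_normalizer_iff]
      intro c
      constructor
      · exact key k hk c
      · intro h
        have := key k⁻¹ (inv_mem hk) _ h
        simpa [mul_assoc] using this
    obtain ⟨N, hNC, hN1, hKN, ⟨q, hq, hNe⟩, -⟩ := minn K _ (hsol K) inf_le_left hKC hC
    have hNK : N ≤ K := hNC.trans inf_le_left
    have hNq := ea_pgroup hNe
    have hqτ : q ∈ ρ.erase p := by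
      exact_mod_cast hKc q hq ((dvd_of_ne hq hNq hN1).trans (Subgroup.card_dvd_of_le hNK))
    have hNV : ∀ n ∈ N, ∀ v ∈ V, Commute n v := fun n hn v hv =>
      (mem_centralizer_iff.1 (hNC hn).2 v hv).symm
    have hno : ∀ v ∈ N, v ≠ 1 → orderOf v = q := fun v hv hv1 => ea_order hq hNe hv hv1
    have hcard2 : ((ρ.erase p).erase q).card = 2 := by
      rw [Finset.card_erase_of_mem hqτ, Finset.card_erase_of_mem hpρ, hρ]
    obtain ⟨r, s, hrs, hrs'⟩ := Finset.card_eq_two.1 hcard2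
    have hr' : r ∈ (ρ.erase p).erase q := by rw [hrs']; simp
    have hs' : s ∈ (ρ.erase p).erase q := by rw [hrs']; simp
    have hrτ : r ∈ ρ.erase p := Finset.mem_of_mem_erase hr'
    have hsτ : s ∈ ρ.erase p := Finset.mem_of_mem_erase hs'
    have hrq : r ≠ q := Finset.ne_of_mem_erase hr'
    have hsq : s ≠ q := Finset.ne_of_mem_erase hs'
    obtain ⟨B, hBK, hBc, hBL⟩ := H52.FC.hall K (hsol K) ({r, s} : Set ℕ)
    have hBV : B ≤ normalizer (V : Set G) := hBK.trans hKV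
    have hBN : B ≤ normalizer (N : Set G) := hBK.trans hKN
    have sub_ea : ∀ (t : ℕ) (A A0 : Subgroup G), Cfsg.IsElementaryAbelian t A → A0 ≤ A →
        Cfsg.IsElementaryAbelian t A0 := by
      intro t A A0 hA h0
      refine ⟨⟨⟨?_⟩⟩, fun a ha => hA.2 a (h0 ha)⟩
      rintro ⟨a, ha⟩ ⟨b, hb⟩
      apply Subtype.ext
      have := hA.1.is_comm.comm ⟨a, h0 ha⟩ ⟨b, h0 hb⟩
      exact congrArg (Subtype.val : A → G) this
    have irr : ∀ (t : ℕ) (A : Subgroup G), Cfsg.IsElementaryAbelian t A → A ≠ ⊥ →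
        B ≤ normalizer (A : Set G) → ∃ A0 ≤ A, A0 ≠ ⊥ ∧ B ≤ normalizer (A0 : Set G) ∧
          ∀ W ≤ A0, W ≠ ⊥ → B ≤ normalizer (W : Set G) → W = A0 := by
      intro t A hA hA1 hBA
      obtain ⟨A0, h0, h1, h4, -, h5⟩ := minn (B ⊔ A) A (hsol _) le_sup_right
        (sup_le hBA le_normalizer) hA1
      refine ⟨A0, h0, h1, le_sup_left.trans h4, fun W hW hW1 hBW => h5 W hW hW1 (sup_le hBW ?_)⟩
      intro a ha
      rw [mem_normalizer_iff]
      have hcm : ∀ w ∈ A, a * w * a⁻¹ = w := by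
        intro w hw
        have := hA.1.is_comm.comm ⟨a, ha⟩ ⟨w, hw⟩
        have h6 : a * w = w * a := congrArg (Subtype.val : A → G) this
        rw [h6]; group
      intro w
      constructor
      · intro hw; rw [hcm w (h0 (hW hw))]; exact hw
      · intro hw
        have h7 : a * w * a⁻¹ ∈ A := h0 (hW hw)
        have h8 : w ∈ A := by
          have := mul_mem (mul_mem (inv_mem ha) h7) ha
          have e : a⁻¹ * (a * w * a⁻¹) * a = w := by group
          rwa [e] at this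
        rw [hcm w h8] at hw; exact hw
    obtain ⟨V0, hV0, hV01, hBV0, hV0m⟩ := irr p V hVe hV1 hBV
    obtain ⟨N0, hN0, hN01, hBN0, hN0m⟩ := irr q N hNe hN1 hBN
    refine px hp hq (hρp r (hτρ r hrτ)) (hρp s (hτρ s hsτ)) hrs (hτp r hrτ).symm (hτp s hsτ).symm
      hrq.symm hsq.symm B V0 N0 (hsol B) ?_ (sub_ea p V V0 hVe hV0) (sub_ea q N N0 hNe hN0)
      hBV0 hBN0 hV01 hN01 hV0m hN0m ?_ ?_ ?_ ?_
    · intro t ht htd
      have := hBc t ht htd
      simpa using this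
    · intro x hx hxp
      by_contra hcon
      push Not at hcon
      obtain ⟨hc1, hc2⟩ := hcon
      unfold Fpf at hc1 hc2
      push Not at hc1 hc2
      obtain ⟨v, hv, hxv, hv1⟩ := hc1
      obtain ⟨n, hn, hxn, hn1⟩ := hc2
      have hxd : orderOf x ∣ Nat.card B := by
        have := Subgroup.card_dvd_of_le (zpowers_le.2 hx)
        rwa [Nat.card_zpowers] at this
      have hxrs := hBc _ hxp hxd
      have hxτ : orderOf x ∈ ρ.erase p ∧ orderOf x ≠ q := by
        rcases hxrs with h | h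
        · rw [h]; exact ⟨hrτ, hrq⟩
        · rw [Set.mem_singleton_iff] at h; rw [h]; exact ⟨hsτ, hsq⟩
      exact gnt p hpρ q (hτρ q hqτ) (orderOf x) (hτρ _ hxτ.1) (hτp q hqτ).symm hxτ.2.symm
        (hτp _ hxτ.1).symm v n x (hvo v (hV0 hv) hv1) (hno n (hN0 hn) hn1) rfl
        (hNV n (hN0 hn) v (hV0 hv)).symm hxn.symm hxv.symm
    · intro x hx y hy hxo hyo hxy
      refine ⟨fun v hv h1 h2 => ?_, fun v hv h1 h2 => ?_⟩
      · by_contra hv1
        exact gnt r (hτρ r hrτ) s (hτρ s hsτ) p hpρ hrs (hτp s hsτ) (hτp r hrτ) x y v hxo hyo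
          (hvo v (hV0 hv) hv1) hxy h2 h1
      · by_contra hv1
        exact gnt r (hτρ r hrτ) s (hτρ s hsτ) q (hτρ q hqτ) hrs hsq hrq x y v hxo hyo
          (hno v (hN0 hv) hv1) hxy h2 h1
    · exact R2_transfer (hρp r (hτρ r hrτ)) K B _ (by simp) hBL (hKr2 r hrτ)
    · exact R2_transfer (hρp s (hτρ s hsτ)) K B _ (by simp) hBL (hKr2 s hsτ)

end H88.F4
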