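import Cfsg.Agent.Lib.H88.F4d
import Cfsg.Agent.Lib.H6.FT345
import Cfsg.Agent.Lib.H52.FC1
import Cfsg.Agent.Lib.H65.PAf
import Cfsg.Agent.Lib.H72.PYa

set_option autoImplicit false

/-! S3814: PA. -/

namespace H88.F4

open Subgroup

universe u

variable {G : Type u} [Group G] [Finite G]

/-- two `K`-normal subgroups with trivial intersection commute -/
theorem comm_of_disj (K A B : Subgroup G) (hA : A ≤ K) (hB : B ≤ K)
    (hKA : K ≤ normalizer (A : Set G)) (hKB : K ≤ normalizer (B : Set G))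
    (hd : ∀ g ∈ A, g ∈ B → g = 1) (a b : G) (ha : a ∈ A) (hb : b ∈ B) : Commute a b := by
  have h1 : a * b * a⁻¹ * b⁻¹ ∈ B :=
    mul_mem ((mem_normalizer_iff.1 (hKB (hA ha)) b).1 hb) (inv_mem hb)
  have h2 : a * b * a⁻¹ * b⁻¹ ∈ A := by
    have := (mem_normalizer_iff.1 (hKA (hB hb)) a⁻¹).1 (inv_mem ha)
    have e : a * b * a⁻¹ * b⁻¹ = a * (b * a⁻¹ * b⁻¹) := by group
    rw [e]
    exact mul_mem ha this
  exact mul_inv_eq_iff_eq_mul.1 (mul_inv_eq_one.1 (hd _ h2 h1))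

theorem disj_of_pgroup {a b : ℕ} (ha : a.Prime) (hb : b.Prime) (hab : a ≠ b) {A B : Subgroup G}
    (hA : IsPGroup a A) (hB : IsPGroup b B) : ∀ g ∈ A, g ∈ B → g = 1 := by
  intro g h1 h2
  obtain ⟨k, hk⟩ := hA ⟨g, h1⟩
  obtain ⟨l, hl⟩ := hB ⟨g, h2⟩
  have e1 : g ^ a ^ k = 1 := congrArg Subtype.val hk
  have e2 : g ^ b ^ l = 1 := congrArg Subtype.val hl
  have h3 := orderOf_dvd_of_pow_eq_one e1
  have h4 := orderOf_dvd_of_pow_eq_one e2
  exact orderOf_eq_one_iff.1 (Nat.eq_one_of_dvd_coprimes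
    (Nat.Coprime.pow _ _ ((Nat.coprime_primes ha hb).2 hab)) h3 h4)

theorem zp_pgroup {t : ℕ} (ht : t.Prime) {x : G} (hx : orderOf x = t) : IsPGroup t (zpowers x) := by
  haveI := Fact.mk ht
  apply IsPGroup.of_card (n := 1)
  rw [Nat.card_zpowers, hx, pow_one]

theorem zp_order {t : ℕ} (ht : t.Prime) {x w : G} (hx : orderOf x = t) (hw : w ∈ zpowers x)
    (h1 : w ≠ 1) : orderOf w = t := by
  have h2 : orderOf w ∣ t := by
    have := Subgroup.card_dvd_of_le (zpowers_le.mpr hw)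
    rwa [Nat.card_zpowers, Nat.card_zpowers, hx] at this
  rcases (Nat.dvd_prime ht).1 h2 with h3 | h3
  · exact absurd (orderOf_eq_one_iff.1 h3) h1
  · exact h3

theorem zp_comm {x : G} : ∀ a ∈ zpowers x, ∀ b ∈ zpowers x, Commute a b := by
  rintro a ⟨i, rfl⟩ b ⟨j, rfl⟩
  exact (Commute.refl x).zpow_zpow i j

/-- a `K`-normal subgroup of order `q` -/
theorem cyc_min {p : ℕ} {τ : Finset ℕ} {V K : Subgroup G} (h : Env p τ V K)
    (hcyc : ∀ t ∈ τ, ∀ A ≤ K, K ≤ normalizer (A : Set G) → IsPGroup t A →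
      (∀ a ∈ A, ∀ b ∈ A, Commute a b) → ¬ R2 t A) {q : ℕ} (hq : q ∈ τ) (P : Subgroup G)
    (hP : P ≤ K) (hKP : K ≤ normalizer (P : Set G)) (hPq : IsPGroup q P) (hP1 : P ≠ ⊥) :
    ∃ n ∈ P, orderOf n = q ∧ K ≤ normalizer (zpowers n : Set G) := by
  have hqp := (h.hτp q hq).1
  haveI := Fact.mk hqp
  obtain ⟨N, hNP, hN1, hKN, ⟨t, ht, hNe⟩, -⟩ := H6.FT.minn K P h.solv hP hKP hP1
  obtain ⟨⟨n, hn⟩, hn1'⟩ := Subgroup.ne_bot_iff_exists_ne_one.1 hN1
  have hn1 : n ≠ 1 := fun h => hn1' (Subtype.ext h)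
  have hNq : IsPGroup q N := hPq.to_le hNP
  have hnt : n ^ t = 1 := hNe.2 n hn
  have htq : t = q := by
    obtain ⟨k, hk⟩ := hNq ⟨n, hn⟩
    have e1 : n ^ q ^ k = 1 := congrArg Subtype.val hk
    by_contra hne
    have h3 := orderOf_dvd_of_pow_eq_one e1
    have h4 := orderOf_dvd_of_pow_eq_one hnt
    exact hn1 (orderOf_eq_one_iff.1 (Nat.eq_one_of_dvd_coprimes
      (Nat.Coprime.pow_left _ ((Nat.coprime_primes hqp ht).2 (Ne.symm hne))) h3 h4))
  subst htq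
  have hno : ∀ w ∈ N, w ≠ 1 → orderOf w = t := fun w hw hw1 => orderOf_eq_prime (hNe.2 w hw) hw1
  have hNa : ∀ a ∈ N, ∀ b ∈ N, Commute a b := by
    intro a ha b hb
    have := hNe.1.is_comm.comm ⟨a, ha⟩ ⟨b, hb⟩
    exact congrArg (Subtype.val : N → G) this
  have hr := (H6.FT.not_r2 ht N hNq (hcyc t hq N (hNP.trans hP) hKN hNq hNa)).1
  have hNz : N = zpowers n := by
    apply le_antisymm
    · intro w hw
      by_cases hw1 : w = 1
      · rw [hw1]; exact one_mem _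
      · exact hr n hn w hw (hno n hn hn1) (hno w hw hw1)
    · exact zpowers_le.2 hn
  exact ⟨n, hNP hn, hno n hn hn1, by rw [← hNz]; exact hKN⟩

/-- step a -/
theorem step_a {p : ℕ} {τ : Finset ℕ} {V K : Subgroup G} (h : Env p τ V K) {q r s : ℕ}
    (hq : q ∈ τ) (hr : r ∈ τ) (hs : s ∈ τ) (hqr : q ≠ r) (hqs : q ≠ s) (hrs : r ≠ s) (n m : G)
    (hn : n ∈ K) (hm : m ∈ K) (hno : orderOf n = q) (hmo : orderOf m = r)
    (hKn : K ≤ normalizer (zpowers n : Set G)) (hKm : K ≤ normalizer (zpowers m : Set G))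
    (hnm : Commute n m) (y : G) (hy : y ∈ K) (hyo : orderOf y = s) : ¬ Fpf y V := by
  intro hf
  have hc : ∀ (t : ℕ), t ∈ τ → t ≠ s → ∀ z ∈ K, orderOf z = t → K ≤ normalizer (zpowers z : Set G) →
      Commute y z := by
    intro t ht hts z hz hzo hKz
    exact hhp1 h.hp (h.hτp t ht).1 (h.hτp s hs).1 (h.hτp t ht).2.symm (h.hτp s hs).2.symm hts
      V (zpowers z) y h.ea (zp_pgroup (h.hτp t ht).1 hzo) hyo (h.nrm hy) (hKz hy)
      ((zpowers_le.2 hz).trans h.nrm) (fun _ => zp_comm) hf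
      (fun w hw hc => h.faith w ((zpowers_le.2 hz) hw) hc) z (mem_zpowers z)
  exact h.nt q hq r hr s hs hqr hrs hqs n hn m hm y hy hno hmo hyo hnm
    (hc r hr hrs m hm hmo hKm).symm (hc q hq hqs n hn hno hKn).symm

/-- step b -/
theorem step_b {p : ℕ} {τ : Finset ℕ} {V K : Subgroup G} (h : Env p τ V K) {q r s : ℕ}
    (hq : q ∈ τ) (hr : r ∈ τ) (hs : s ∈ τ) (hqr : q ≠ r) (hqs : q ≠ s) (hrs : r ≠ s) (n : G)
    (hn : n ∈ K) (hno : orderOf n = q) (hKn : K ≤ normalizer (zpowers n : Set G))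
    (ha : ∀ y ∈ K, orderOf y = s → ¬ Fpf y V) (x y : G) (hx : x ∈ K) (hy : y ∈ K)
    (hxo : orderOf x = r) (hyo : orderOf y = s) (hxy : Commute x y) :
    Fpf x V ∧ Fpf y (zpowers n) := by
  have hzK : zpowers n ≤ K := zpowers_le.2 hn
  have key := pprime h.hp (h.hτp q hq).1 (h.hτp r hr).1 (h.hτp s hs).1 (h.hτp q hq).2.symm
    (h.hτp r hr).2.symm (h.hτp s hs).2.symm hqr hqs hrs V (zpowers n) x y h.ea
    (zp_pgroup (h.hτp q hq).1 hno) zp_comm ?_ (hzK.trans h.nrm)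
    (fun w hw hc => h.faith w (hzK hw) hc) (h.nrm hx) (h.nrm hy) (hKn hx) (hKn hy) hxo hyo hxy
    (fun v hv h1 h2 => h.pair r hr s hs hrs x hx y hy hxo hyo hxy v hv h1 h2)
    (fun w hw hc hw1 v hv h1 h2 => h.pair r hr q hq hqr.symm x hx w (hzK hw) hxo
      (zp_order (h.hτp q hq).1 hno hw hw1) hc v hv h1 h2)
    (fun w hw hc hw1 v hv h1 h2 => h.pair s hs q hq hqs.symm y hy w (hzK hw) hyo
      (zp_order (h.hτp q hq).1 hno hw hw1) hc v hv h1 h2)
    (fun w hw h1 h2 => by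
      by_contra hw1
      exact h.nt q hq r hr s hs hqr hrs hqs w (hzK hw) x hx y hy
        (zp_order (h.hτp q hq).1 hno hw hw1) hxo hyo h1.symm hxy h2.symm)
  · rcases key with ⟨k1, _, k2, _⟩ | ⟨k1, _, _, _⟩
    · exact ⟨k1, k2⟩
    · exact absurd k1 (ha y hy hyo)
  · intro hb
    rw [zpowers_eq_bot] at hb
    rw [hb, orderOf_one] at hno
    exact (h.hτp q hq).1.one_lt.ne hno

/-- step c -/
theorem step_c {p : ℕ} {τ : Finset ℕ} {V K : Subgroup G} (h : Env p τ V K) {q r s : ℕ}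
    (hq : q ∈ τ) (hr : r ∈ τ) (hs : s ∈ τ) (_hqr : q ≠ r) (_hqs : q ≠ s) (hrs : r ≠ s) (n m : G)
    (hn : n ∈ K) (hm : m ∈ K) (hno : orderOf n = q) (hmo : orderOf m = r)
    (hKn : K ≤ normalizer (zpowers n : Set G)) (hKm : K ≤ normalizer (zpowers m : Set G))
    (hb : ∀ x ∈ K, ∀ y ∈ K, orderOf x = r → orderOf y = s → Commute x y →
      Fpf x V ∧ Fpf y (zpowers n)) : q ≠ 2 := by
  have hrp := (h.hτp r hr).1
  have hsp := (h.hτp s hs).1
  have hqp := (h.hτp q hq).1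
  obtain ⟨y, hy, hyo, w, hw, hw1, hyw⟩ := H6.FT.r2_fix hsp K (zpowers m) (h.r2 s hs) hKm (by
      rw [Nat.card_zpowers, hmo]
      intro hd
      exact hrs ((Nat.prime_dvd_prime_iff_eq hsp hrp).1 hd).symm) (by
      intro hb
      rw [zpowers_eq_bot] at hb
      rw [hb, orderOf_one] at hmo
      exact hrp.one_lt.ne hmo)
  have hmy : Commute m y := commute_of_zpowers hw (by rw [hmo]; exact hrp) hw1 hyw.symm
  have h1 := (hb m hm y hy hmo hyo hmy).2
  have hn1 : n ≠ 1 := by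
    rintro rfl
    rw [orderOf_one] at hno
    exact hqp.one_lt.ne hno
  have h2 : ¬ Commute y n := fun hc => hn1 (h1 n (mem_zpowers n) hc)
  have h3 := H72.PYa.dvd_sub_one hqp hsp hno hyo
    ((mem_normalizer_iff.1 (hKn hy) n).1 (mem_zpowers n)) h2
  intro hq2
  rw [hq2] at h3
  have := Nat.le_of_dvd (by norm_num) h3
  have := hsp.two_le
  omega

theorem pa_of {p : ℕ} {τ : Finset ℕ} {V K : Subgroup G} (h : Env p τ V K)
    (pag : ∀ {q r : ℕ} (_ : q ∈ τ) (_ : r ∈ τ) (_ : q ≠ r) (n : G) (_ : n ∈ K)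
      (_ : orderOf n = q) (_ : K ≤ normalizer (zpowers n : Set G))
      (_ : ∀ Q ≤ K, K ≤ normalizer (Q : Set G) → IsPGroup q Q → IsCyclic Q)
      (_ : ∀ R ≤ K, K ≤ normalizer (R : Set G) → IsPGroup r R → IsCyclic R)
      (_ : ∀ t : ℕ, t.Prime → t ≠ q → t ≠ r → ∀ P ≤ K, K ≤ normalizer (P : Set G) →
        IsPGroup t P → P = ⊥), r ∣ q - 1)
    (hcyc : ∀ t ∈ τ, ∀ A ≤ K, K ≤ normalizer (A : Set G) → IsPGroup t A →
      (∀ a ∈ A, ∀ b ∈ A, Commute a b) → ¬ R2 t A) (q r : ℕ) (hq : q ∈ τ) (hr : r ∈ τ)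
    (hqr : q ≠ r) (P R : Subgroup G) (hP : P ≤ K) (hKP : K ≤ normalizer (P : Set G))
    (hPq : IsPGroup q P) (hP1 : P ≠ ⊥) (hR : R ≤ K) (hKR : K ≤ normalizer (R : Set G))
    (hRr : IsPGroup r R) (hR1 : R ≠ ⊥) : False := by
  classical
  obtain ⟨hqp, -⟩ := h.hτp q hq
  obtain ⟨hrp, -⟩ := h.hτp r hr
  -- third prime
  obtain ⟨s, hs, hqs, hrs, hall⟩ : ∃ s ∈ τ, q ≠ s ∧ r ≠ s ∧ ∀ t ∈ τ, t = q ∨ t = r ∨ t = s := by
    have hc1 : ((τ.erase q).erase r).card = 1 := by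
      rw [Finset.card_erase_of_mem (Finset.mem_erase.2 ⟨hqr.symm, hr⟩), Finset.card_erase_of_mem hq, h.hτ]
    obtain ⟨s, hs⟩ := Finset.card_eq_one.1 hc1
    have hs' : s ∈ (τ.erase q).erase r := by rw [hs]; simp
    refine ⟨s, Finset.mem_of_mem_erase (Finset.mem_of_mem_erase hs'),
      (Finset.ne_of_mem_erase (Finset.mem_of_mem_erase hs')).symm,
      (Finset.ne_of_mem_erase hs').symm, fun t ht => ?_⟩
    by_cases h1 : t = q
    · exact Or.inl h1
    by_cases h2 : t = r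
    · exact Or.inr (Or.inl h2)
    · have : t ∈ (τ.erase q).erase r := Finset.mem_erase.2 ⟨h2, Finset.mem_erase.2 ⟨h1, ht⟩⟩
      rw [hs, Finset.mem_singleton] at this
      exact Or.inr (Or.inr this)
  obtain ⟨hsp, -⟩ := h.hτp s hs
  obtain ⟨n, hnP, hno, hKn⟩ := cyc_min h hcyc hq P hP hKP hPq hP1
  obtain ⟨m, hmR, hmo, hKm⟩ := cyc_min h hcyc hr R hR hKR hRr hR1
  have hn : n ∈ K := hP hnP
  have hm : m ∈ K := hR hmR
  have hnK : zpowers n ≤ K := zpowers_le.2 hn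
  have hmK : zpowers m ≤ K := zpowers_le.2 hm
  have hzn := zp_pgroup hqp hno
  have hzm := zp_pgroup hrp hmo
  have hnm : Commute n m := comm_of_disj K (zpowers n) (zpowers m) hnK hmK hKn hKm
    (disj_of_pgroup hqp hrp hqr hzn hzm) n m (mem_zpowers n) (mem_zpowers m)
  have ha := step_a h hq hr hs hqr hqs hrs n m hn hm hno hmo hKn hKm hnm
  have hb1 := fun x (hx : x ∈ K) y (hy : y ∈ K) hxo hyo hxy =>
    step_b h hq hr hs hqr hqs hrs n hn hno hKn (fun y hy hyo => ha y hy hyo) x y hx hy hxo hyo hxy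
  have hb2 := fun x (hx : x ∈ K) y (hy : y ∈ K) hxo hyo hxy =>
    step_b h hr hq hs hqr.symm hrs hqs m hm hmo hKm (fun y hy hyo => ha y hy hyo) x y hx hy hxo hyo hxy
  have hq2 : q ≠ 2 := step_c h hq hr hs hqr hqs hrs n m hn hm hno hmo hKn hKm hb1
  have hr2 : r ≠ 2 := step_c h hr hq hs hqr.symm hrs hqs m n hm hn hmo hno hKm hKn hb2
  have hQc : ∀ Q ≤ K, K ≤ normalizer (Q : Set G) → IsPGroup q Q → IsCyclic Q := fun Q hQ hKQ hQq =>
    H65.PAf.paf h hcyc hq hs hqs hq2 (fun w hw y hy hwo hyo hwy => (hb2 w hw y hy hwo hyo hwy).1)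
      Q hQ hKQ hQq
  have hRc : ∀ Q ≤ K, K ≤ normalizer (Q : Set G) → IsPGroup r Q → IsCyclic Q := fun Q hQ hKQ hQq =>
    H65.PAf.paf h hcyc hr hs hrs hr2 (fun w hw y hy hwo hyo hwy => (hb1 w hw y hy hwo hyo hwy).1)
      Q hQ hKQ hQq
  have htriv : ∀ t : ℕ, t.Prime → t ≠ q → t ≠ r → ∀ P ≤ K, K ≤ normalizer (P : Set G) →
      IsPGroup t P → P = ⊥ := by
    intro t ht htq htr P' hP' hKP' hPt
    by_contra hP1'
    haveI := Fact.mk ht
    have htd : t ∣ Nat.card P' := by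
      obtain ⟨k, hk⟩ := IsPGroup.iff_card.1 hPt
      rw [hk]
      apply dvd_pow_self
      rintro rfl
      apply hP1'
      rw [pow_zero] at hk
      exact (Subgroup.card_eq_one).1 hk
    have htτ := h.card t ht (htd.trans (Subgroup.card_dvd_of_le hP'))
    have hts : t = s := by
      rcases hall t htτ with h1 | h1 | h1
      · exact absurd h1 htq
      · exact absurd h1 htr
      · exact h1
    subst hts
    obtain ⟨⟨y, hyP⟩, hyo'⟩ := exists_prime_orderOf_dvd_card' t htd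
    have hyo : orderOf y = t := by rw [← hyo', Subgroup.orderOf_mk]
    have c1 : Commute n y := comm_of_disj K (zpowers n) P' hnK hP' hKn hKP'
      (disj_of_pgroup hqp ht htq.symm hzn hPt) n y (mem_zpowers n) hyP
    have c2 : Commute m y := comm_of_disj K (zpowers m) P' hmK hP' hKm hKP'
      (disj_of_pgroup hrp ht htr.symm hzm hPt) m y (mem_zpowers m) hyP
    exact h.nt q hq r hr t hs hqr hrs hqs n hn m hm y (hP' hyP) hno hmo hyo hnm c2 c1
  have d1 := pag hq hr hqr n hn hno hKn hQc hRc htriv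
  have d2 := pag hr hq hqr.symm m hm hmo hKm hRc hQc (fun t ht h1 h2 => htriv t ht h2 h1)
  have e1 := Nat.le_of_dvd (by have := hqp.two_le; omega) d1
  have e2 := Nat.le_of_dvd (by have := hrp.two_le; omega) d2
  have := hqp.two_le
  have := hrp.two_le
  omega

end H88.F4
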