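import Cfsg.Agent.Lib.H88.Focal
import Cfsg.Agent.Lib.H87.Lift

/-! The action of the hyperfocal subgroup on a strongly closed subgroup (S5198). -/

set_option autoImplicit false
open Cfsg Cfsg.FusionSystem
open H86.FusBasic H86.FusSat H86.FusAlperin H88.Focal

namespace H88.HypAct

variable {Ω : Type*} [Group Ω] {S : Subgroup Ω}

theorem stronglyClosed_le_normalizer {F : FusionSystem S} {T : Subgroup Ω}
    (hT : F.StronglyClosed T) : S ≤ Subgroup.normalizer (T : Set Ω) := by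
  apply le_normalizer_of_conj_mem
  intro s hs x hx
  exact hT.2 T le_rfl _ (F.conj_mem hT.1 hs) ⟨x, hx⟩

/-- Every map lifts, modulo the strongly closed subgroup `T`, to a map on `PT`. -/
theorem exists_lift [Finite S] {p : ℕ} [Fact p.Prime] (hS : IsPGroup p S) {F : FusionSystem S}
    (hF : F.IsSaturated p) {T : Subgroup Ω} (hT : F.StronglyClosed T) {P : Subgroup Ω}
    {φ : P →* Ω} (hφ : φ ∈ F.Hom P) :
    ∃ ψ ∈ F.Hom (P ⊔ T), ∀ x : P, (φ x)⁻¹ * ψ ⟨x, Subgroup.mem_sup_left x.2⟩ ∈ T := by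
  obtain ⟨g, ⟨ψ, hψ, hψg⟩, hg⟩ := H87.Lift.good_of_saturated hS hF hT (H87.Base.isMap_of_mem hφ)
  refine ⟨ψ, hψ, fun x => ?_⟩
  rw [hψg]
  have := hg x x.2
  rwa [H87.Base.extFun_coe] at this

theorem hyp_action [Finite S] {p : ℕ} [Fact p.Prime] (hS : IsPGroup p S) {F : FusionSystem S}
    (hF : F.IsSaturated p) {T : Subgroup Ω} (hT : F.StronglyClosed T) :
    ∀ x ∈ F.hyperfocalSubgroup p,
      ∃ α ∈ ((pResidual p (F.autGroup T)).map (F.autGroup T).subtype ⊔ Inn T : Subgroup (MulAut T)),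
        ∀ t : T, ((α t : T) : Ω) = x * (t : Ω) * x⁻¹ := by
  have hTS := hT.1
  have hTN := stronglyClosed_le_normalizer hT
  have hfT : Finite T := finite_of_le hTS
  have hfA : Finite (MulAut T) := finite_mulAut T
  set K : Subgroup (MulAut T) := (pResidual p (F.autGroup T)).map (F.autGroup T).subtype ⊔ Inn T with hK
  have hres : (pResidual p (F.autGroup T)).map (F.autGroup T).subtype ≤ K := le_sup_left
  have hInn : Inn T ≤ K := le_sup_right
  -- `K` is normalized by `Aut_F(T)`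
  have hKn : ∀ a ∈ F.autGroup T, ∀ b ∈ K, a * b * a⁻¹ ∈ K := by
    intro a ha b hb
    rw [hK] at hb
    have h1 : (MulAut.conj a).toMonoidHom b ∈ K := by
      have h2 : b ∈ K.comap (MulAut.conj a).toMonoidHom := by
        refine (sup_le ?_ ?_ : _ ≤ K.comap (MulAut.conj a).toMonoidHom) hb
        · rintro _ ⟨c, hc, rfl⟩
          apply hres
          exact ⟨(⟨a, ha⟩ : F.autGroup T) * c * (⟨a, ha⟩ : F.autGroup T)⁻¹,
            Subgroup.Normal.conj_mem inferInstance c hc _, rfl⟩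
        · rintro _ ⟨t, rfl⟩
          apply hInn
          refine ⟨a t, ?_⟩
          ext z
          show ((a t * z * (a t)⁻¹ : T) : Ω) = ((a (t * (a⁻¹ z) * t⁻¹) : T) : Ω)
          rw [map_mul, map_mul, MulAut.apply_inv_self, map_inv]
      exact h2
    exact h1
  have hc : ∀ s (hs : s ∈ S), conjAut T (hTN hs) ∈ F.autGroup T := fun s hs => by
    rw [mem_autGroup F hTS]
    exact conj_mem' F hTS hs fun x => rfl
  intro x hx
  rw [hyp_eq_closure] at hx
  have hxS : x ∈ S := by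
    rw [← hyp_eq_closure] at hx
    exact hyp_le F p hx
  -- it is enough to see that `conjAut` of `x` lies in `K`
  suffices h : ∃ α ∈ K, ∀ t : T, ((α t : T) : Ω) = x * (t : Ω) * x⁻¹ from h
  clear hxS
  induction hx using Subgroup.closure_induction with
  | one => exact ⟨1, K.one_mem, fun t => by simp⟩
  | mul a b _ _ iha ihb =>
    obtain ⟨α, hα, h1⟩ := iha
    obtain ⟨β, hβ, h2⟩ := ihb
    refine ⟨α * β, K.mul_mem hα hβ, fun t => ?_⟩
    rw [MulAut.mul_apply, h1, h2]; group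
  | inv a _ iha =>
    obtain ⟨α, hα, h1⟩ := iha
    refine ⟨α⁻¹, K.inv_mem hα, fun t => ?_⟩
    have := h1 (α⁻¹ t)
    rw [MulAut.apply_inv_self] at this
    rw [this]; group
  | mem x hx =>
    obtain ⟨P, α, y, hP, hα, hcop, rfl⟩ := hx
    obtain ⟨ψ, hψ, hψx⟩ := exists_lift hS hF hT ((mem_autGroup F hP).1 hα)
    have hψT : ψ.comp (Subgroup.inclusion le_sup_right) ∈ F.Hom T := restrict_mem F hψ le_sup_right
    have hrange : (ψ.comp (Subgroup.inclusion (le_sup_right : T ≤ P ⊔ T))).range = T := by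
      have hle : (ψ.comp (Subgroup.inclusion (le_sup_right : T ≤ P ⊔ T))).range ≤ T := by
        rintro _ ⟨x, rfl⟩
        exact hT.2 T le_rfl _ hψT x
      have hcd : Nat.card (ψ.comp (Subgroup.inclusion (le_sup_right : T ≤ P ⊔ T))).range = Nat.card T :=
        (Nat.card_congr (MonoidHom.ofInjective (F.injective_of_mem hψT)).toEquiv).symm
      exact Subgroup.eq_of_le_of_card_ge hle hcd.ge
    let γ : MulAut T := toEquiv _ (F.injective_of_mem hψT) hrange
    have hγ : γ ∈ F.autGroup T := (isIso_toEquiv F hψT hrange).mem_autGroup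
    have hγx : ∀ t : T, ((γ t : T) : Ω) = ψ ⟨t, Subgroup.mem_sup_right t.2⟩ := fun t => rfl
    -- conjugation by `y` transported
    have step : ∀ z : P, ∃ k ∈ K, conjAut T (hTN (hP (α z).2)) =
        k * (γ * conjAut T (hTN (hP z.2)) * γ⁻¹) := by
      intro z
      have h1 := hψx z
      set w : Ω := ψ ⟨z, Subgroup.mem_sup_left z.2⟩ with hw
      have h2 : ((α z : P) : Ω)⁻¹ * w ∈ T := h1
      have hwS : w ∈ S := apply_mem F hψ _
      refine ⟨conjAut T (hTN (hP (α z).2)) * (conjAut T (hTN hwS))⁻¹, ?_, ?_⟩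
      · -- inner
        have h3 : ((α z : P) : Ω) * w⁻¹ ∈ T := by
          have h4 := (Subgroup.mem_normalizer_iff.1 (hTN (hP (α z).2)) _).1 (T.inv_mem h2)
          have h5 : ((α z : P) : Ω) * (((α z : P) : Ω)⁻¹ * w)⁻¹ * ((α z : P) : Ω)⁻¹ = ((α z : P) : Ω) * w⁻¹ := by group
          rwa [h5] at h4
        apply hInn
        refine ⟨⟨_, h3⟩, ?_⟩
        ext t
        have h6 : (((conjAut T (hTN hwS))⁻¹ t : T) : Ω) = w⁻¹ * t * w := by
          have h7 := conjAut_apply T (hTN hwS) ((conjAut T (hTN hwS))⁻¹ t)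
          rw [MulAut.apply_inv_self] at h7
          rw [h7]; group
        show ((α z : P) : Ω) * w⁻¹ * t * (((α z : P) : Ω) * w⁻¹)⁻¹ = _
        rw [MulAut.mul_apply, conjAut_apply, h6]; group
      · have h8 : conjAut T (hTN hwS) = γ * conjAut T (hTN (hP z.2)) * γ⁻¹ := by
          rw [eq_mul_inv_iff_mul_eq]
          ext t
          rw [MulAut.mul_apply, MulAut.mul_apply, conjAut_apply, hγx, hγx, hw, ← map_mul, ← map_inv,
            ← map_mul]
          rfl
        rw [← h8]; group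
    have hγn : ∀ n : ℕ, γ ^ n ∈ F.autGroup T := fun n => Subgroup.pow_mem _ hγ n
    have iter : ∀ (n : ℕ) (z : P), ∃ k ∈ K, conjAut T (hTN (hP ((α ^ n) z).2)) =
        k * (γ ^ n * conjAut T (hTN (hP z.2)) * (γ ^ n)⁻¹) := by
      intro n
      induction n with
      | zero => intro z; exact ⟨1, K.one_mem, by simp⟩
      | succ n ih =>
        intro z
        obtain ⟨k, hk, h1⟩ := ih z
        obtain ⟨l, hl, h2⟩ := step ((α ^ n) z)
        refine ⟨l * (γ * k * γ⁻¹), K.mul_mem hl (hKn γ hγ k hk), ?_⟩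
        have h3 : conjAut T (hTN (hP ((α ^ (n + 1)) z).2)) = conjAut T (hTN (hP (α ((α ^ n) z)).2)) := by
          ext t
          rw [conjAut_apply, conjAut_apply, pow_succ', MulAut.mul_apply]
        rw [h3, h2, h1, pow_succ']
        group
    -- choose the exponent
    obtain ⟨m, hm⟩ := H2.Residual.isPGroup_quotient_residual (G := F.autGroup T) (p := p)
      (QuotientGroup.mk (⟨γ, hγ⟩ : F.autGroup T))
    have hm' : γ ^ p ^ m ∈ K := by
      apply hres
      refine ⟨(⟨γ, hγ⟩ : F.autGroup T) ^ p ^ m, ?_, rfl⟩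
      rw [SetLike.mem_coe, ← QuotientGroup.eq_one_iff]
      exact hm
    obtain ⟨j, hj⟩ := exists_pow_eq_self_of_coprime (x := α) (n := p ^ m)
      ((Nat.Coprime.pow_right m hcop).symm)
    rw [← pow_mul] at hj
    obtain ⟨k, hk, h1⟩ := iter (p ^ m * j) y
    have hγj : γ ^ (p ^ m * j) ∈ K := by
      rw [pow_mul]
      exact K.pow_mem hm' j
    set c := conjAut T (hTN (hP y.2)) with hcdef
    have hcA : c ∈ F.autGroup T := hc y (hP y.2)
    have h2 : conjAut T (hTN (hP ((α ^ (p ^ m * j)) y).2)) = conjAut T (hTN (hP (α y).2)) := by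
      ext t
      rw [conjAut_apply, conjAut_apply, hj]
    rw [h2] at h1
    refine ⟨c⁻¹ * conjAut T (hTN (hP (α y).2)), ?_, fun t => ?_⟩
    · rw [h1]
      have h3 : c⁻¹ * (k * (γ ^ (p ^ m * j) * c * (γ ^ (p ^ m * j))⁻¹)) =
          (c⁻¹ * k * c⁻¹⁻¹) * (c⁻¹ * (γ ^ (p ^ m * j)) * c⁻¹⁻¹) * (γ ^ (p ^ m * j))⁻¹ := by group
      rw [h3]
      exact K.mul_mem (K.mul_mem (hKn _ (Subgroup.inv_mem _ hcA) _ hk)
        (hKn _ (Subgroup.inv_mem _ hcA) _ hγj)) (K.inv_mem hγj)
    · have h6 : ∀ t : T, ((c⁻¹ t : T) : Ω) = (y : Ω)⁻¹ * t * y := by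
        intro t
        have h7 := conjAut_apply T (hTN (hP y.2)) (c⁻¹ t)
        rw [← hcdef, MulAut.apply_inv_self] at h7
        rw [h7]; group
      rw [MulAut.mul_apply, h6, conjAut_apply]
      group

end H88.HypAct
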