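import Cfsg.Agent.S1447

/-! `p'`-automorphism groups of nonabelian metacyclic `p`-groups, `p` odd. -/

set_option autoImplicit false
open scoped commutatorElement

namespace H88.MetaH

universe u

theorem isMetacyclic_equiv {R R' : Type*} [Group R] [Group R'] (e : R ≃* R') (h : Cfsg.IsMetacyclic R) :
    Cfsg.IsMetacyclic R' := by
  obtain ⟨N, hN, hNc, hNq⟩ := h
  have hn : (N.map e.toMonoidHom).Normal := hN.map e.toMonoidHom e.surjective
  refine ⟨N.map e.toMonoidHom, hn, ?_, ?_⟩
  · exact isCyclic_of_surjective _ (N.equivMapOfInjective e.toMonoidHom e.injective).surjective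
  · have h1 : Function.Surjective (QuotientGroup.map N (N.map e.toMonoidHom) e.toMonoidHom (Subgroup.le_comap_map _ _)) := by
      intro q
      obtain ⟨g, rfl⟩ := QuotientGroup.mk_surjective q
      obtain ⟨g', rfl⟩ := e.surjective g
      exact ⟨(g' : R ⧸ N), rfl⟩
    exact isCyclic_of_surjective _ h1

/-- `p'`-groups of automorphisms of a nonabelian metacyclic `p`-group, `p` odd. -/
theorem coprime_nonabelian {S : Type u} [Group S] [Finite S] {p : ℕ} [hpf : Fact p.Prime] (hp : p ≠ 2) (hS : IsPGroup p S)
    (hm : Cfsg.IsMetacyclic S) (hna : ¬ IsMulCommutative S) (H : Subgroup (MulAut S)) (hc : (Nat.card H).Coprime p) :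
    IsMulCommutative H ∧ ∀ h ∈ H, h ^ (p - 1) = 1 := by
  classical
  let φ : H →* MulAut S := H.subtype
  let G := S ⋊[φ] H
  have hfG : Finite G := Finite.of_equiv _ (SemidirectProduct.equivProd (φ := φ)).symm
  let R : Subgroup G := (SemidirectProduct.inl : S →* G).range
  let A : Subgroup G := (SemidirectProduct.inr : H →* G).range
  have eR : S ≃* R := MonoidHom.ofInjective SemidirectProduct.inl_injective
  have eA : H ≃* A := MonoidHom.ofInjective SemidirectProduct.inr_injective
  have hRp : IsPGroup p R := hS.of_surjective eR.toMonoidHom eR.surjective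
  have hRn : R.Normal := by
    have : R = (SemidirectProduct.rightHom : G →* H).ker := by
      ext g; exact (SemidirectProduct.range_inl_eq_ker_rightHom (φ := φ)) ▸ Iff.rfl
    rw [this]; infer_instance
  have hAR : A ≤ Subgroup.normalizer (R : Set G) := by rw [Subgroup.normalizer_eq_top]; exact le_top
  have hAc : (Nat.card A).Coprime p := by rwa [← Nat.card_congr eA.toEquiv]
  obtain ⟨-, hgen, -, hstr⟩ := Cfsg.Agent.S1447.result p hp R A hRp (isMetacyclic_equiv eR hm) hAR hAc
  have hconj : ∀ (h : H) (s : S), (SemidirectProduct.inr h : G) * SemidirectProduct.inl s * (SemidirectProduct.inr h)⁻¹ =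
      SemidirectProduct.inl ((h : MulAut S) s) := by
    intro h s
    exact (SemidirectProduct.inl_aut (φ := φ) h s).symm ▸ by rw [map_inv]
  by_cases hAR' : A ≤ Subgroup.centralizer (R : Set G)
  · -- `H` is trivial
    have h1 : ∀ h : H, (h : MulAut S) = 1 := by
      intro h
      apply MulEquiv.ext
      intro s
      have h2 := (Subgroup.mem_centralizer_iff.1 (hAR' ⟨h, rfl⟩)) (SemidirectProduct.inl s) ⟨s, rfl⟩
      have h3 := hconj h s
      rw [← h2, mul_inv_cancel_right] at h3
      exact (SemidirectProduct.inl_injective h3).symm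
    refine ⟨⟨⟨fun a b => Subtype.ext ?_⟩⟩, fun h hh => ?_⟩
    · rw [Subgroup.coe_mul, Subgroup.coe_mul, h1 a, h1 b]
    · have := h1 ⟨h, hh⟩
      rw [show h = 1 from this, one_pow]
  · obtain ⟨hbot, hcyc, -, -, -⟩ := hstr (fun hcomm => hna ⟨⟨fun a b => by
      have := hcomm.is_comm.comm (eR a) (eR b)
      rw [← map_mul, ← map_mul] at this
      exact eR.injective this⟩⟩) hAR'
    set C := ⁅R, A⁆ with hC
    have hAC : A ≤ Subgroup.normalizer (C : Set G) := by
      intro a ha
      rw [Subgroup.mem_normalizer_iff_map_conj_eq, hC, Subgroup.map_commutator,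
        Subgroup.mem_normalizer_iff_map_conj_eq.1 (hAR ha),
        Subgroup.mem_normalizer_iff_map_conj_eq.1 (Subgroup.le_normalizer ha)]
    let θ : A →* MulAut C := C.normalizerMonoidHom.comp (Subgroup.inclusion hAC)
    have hθ : ∀ (a : A) (c : C), ((θ a c : C) : G) = a * c * a⁻¹ := fun a c => rfl
    -- `θ` is faithful
    have hinj : ∀ a : A, θ a = 1 → a = 1 := by
      intro a ha
      have h1 : R ≤ Subgroup.centralizer {(a : G)} := by
        rw [← hgen]
        refine sup_le (fun c hc => ?_) (fun c hc => ?_)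
        · rw [Subgroup.mem_centralizer_singleton_iff]
          have h2 := hθ a ⟨c, hc⟩
          rw [ha] at h2
          have h3 : c = a * c * a⁻¹ := h2
          exact (eq_mul_inv_iff_mul_eq.1 h3)
        · rw [Subgroup.mem_centralizer_singleton_iff]
          exact ((Subgroup.mem_centralizer_iff.1 (Subgroup.mem_inf.1 hc).2) a a.2).symm
      obtain ⟨h, hh⟩ := a.2
      have h4 : (h : MulAut S) = 1 := by
        apply MulEquiv.ext
        intro s
        have h2 := Subgroup.mem_centralizer_singleton_iff.1 (h1 ⟨s, rfl⟩)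
        have h3 := hconj h s
        rw [hh, ← h2, mul_inv_cancel_right] at h3
        exact (SemidirectProduct.inl_injective h3).symm
      apply Subtype.ext
      rw [← hh]
      have h5 : h = 1 := Subtype.ext h4
      rw [h5]
      exact map_one _
    have hθinj : Function.Injective θ := (injective_iff_map_eq_one θ).2 hinj
    have hcomm : ∀ u v : MulAut C, u * v = v * u := by
      intro u v
      apply (IsCyclic.mulAutMulEquiv C).injective
      rw [map_mul, map_mul, mul_comm]
    obtain ⟨m, hm'⟩ := IsPGroup.iff_card.1 (hRp.to_le (show C ≤ R from by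
      rw [hC]; exact Subgroup.commutator_le_left R A))
    have hm0 : m ≠ 0 := by
      rintro rfl
      rw [pow_zero, Subgroup.card_eq_one] at hm'
      exact hbot hm'
    have hcardC : Nat.card (MulAut C) = p ^ (m - 1) * (p - 1) := by
      rw [IsCyclic.card_mulAut, hm', Nat.totient_prime_pow hpf.out (by omega)]
    refine ⟨⟨⟨fun a b => ?_⟩⟩, fun h hh => ?_⟩
    · apply eA.injective
      apply hθinj
      rw [map_mul, map_mul, map_mul, map_mul, hcomm]
    · have h1 : (⟨h, hh⟩ : H) ^ (p - 1) = 1 := by
        apply eA.injective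
        apply hθinj
        rw [map_one, map_one]
        have h2 : θ (eA ((⟨h, hh⟩ : H) ^ (p - 1))) ^ p ^ (m - 1) = 1 := by
          rw [map_pow, map_pow, ← pow_mul, mul_comm, ← hcardC, pow_card_eq_one']
        have h3 : orderOf (θ (eA ((⟨h, hh⟩ : H) ^ (p - 1)))) ∣ Nat.card H := by
          refine (orderOf_map_dvd θ _).trans ?_
          rw [Nat.card_congr eA.toEquiv]
          exact orderOf_dvd_natCard _
        have h4 := orderOf_dvd_of_pow_eq_one h2
        have h5 : orderOf (θ (eA ((⟨h, hh⟩ : H) ^ (p - 1)))) = 1 :=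
          Nat.eq_one_of_dvd_coprimes (Nat.Coprime.pow_right (m - 1) hc) h3 h4
        exact orderOf_eq_one_iff.1 h5
      exact congrArg Subtype.val h1

end H88.MetaH
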