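import Mathlib

/-! Operators of order `p` on abelian `p`-groups. -/

set_option autoImplicit false

namespace H88.PowAct

open Polynomial

theorem exists_poly {p : ℕ} (hp : p.Prime) :
    ∃ V : ℤ[X], ((X : ℤ[X]) + 1) ^ p = (X : ℤ[X]) ^ p + 1 + (p : ℤ[X]) * X * (1 + X * V) := by
  obtain ⟨r, hr⟩ := exists_add_pow_prime_eq hp (X : ℤ[X]) 1
  rw [one_pow, mul_one, mul_assoc] at hr
  have h1 : r.coeff 0 = 1 := by
    have h2 := congrArg (fun q : ℤ[X] => q.coeff 1) hr
    simp only [coeff_add, coeff_X_add_one_pow, Nat.choose_one_right, coeff_X_pow, if_neg hp.one_lt.ne, coeff_one,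
      if_neg one_ne_zero, coeff_natCast_mul, zero_add, add_zero] at h2
    have h3 : ((X : ℤ[X]) * r).coeff 1 = r.coeff 0 := coeff_X_mul r 0
    rw [h3] at h2
    have h4 : (p : ℤ) ≠ 0 := by exact_mod_cast hp.ne_zero
    have h5 : (p : ℤ) * r.coeff 0 = (p : ℤ) * 1 := by rw [mul_one]; exact h2.symm
    exact mul_left_cancel₀ h4 h5
  obtain ⟨V, hV⟩ : (X : ℤ[X]) ∣ r - 1 := by
    rw [X_dvd_iff]
    simp [h1]
  refine ⟨V, ?_⟩
  rw [hr, ← hV]
  ring

/-- If `(y + 1) ^ p = 1` and `y ^ c = 0` then `p ^ k * y ^ i = 0` as soon as `c ≤ i + k (p - 1)`, `i ≥ 1`. -/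
theorem ring_lemma {R : Type*} [Ring R] {p : ℕ} (hp : p.Prime) {y : R} {c : ℕ} (h1 : (y + 1) ^ p = 1)
    (h2 : y ^ c = 0) : ∀ k i : ℕ, c ≤ (i + 1) + k * (p - 1) → (p : R) ^ k * y ^ (i + 1) = 0 := by
  obtain ⟨V, hV⟩ := exists_poly hp
  have h3 := congrArg (aeval y) hV
  set v := aeval y V with hv
  simp only [map_pow, map_add, map_mul, map_one, map_natCast, aeval_X] at h3
  rw [h1] at h3
  have hvy : Commute v y := by
    have h4 : Commute (aeval y V) (aeval y (X : ℤ[X])) := by
      rw [commute_iff_eq, ← map_mul, ← map_mul, mul_comm]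
    rwa [aeval_X] at h4
  have hpy : (p : R) * y = -y ^ p - (p : R) * y ^ 2 * v := by
    have h4 : y ^ p + (p : R) * y + (p : R) * y ^ 2 * v = 0 := by
      have h5 : (1 : R) = 1 + (y ^ p + (p : R) * y + (p : R) * y ^ 2 * v) := by
        conv_lhs => rw [h3]
        rw [← hv, pow_two]
        noncomm_ring
      exact (left_eq_add.1 h5)
    rw [eq_sub_iff_add_eq, ← sub_eq_zero, sub_neg_eq_add, ← h4]
    abel
  intro k
  induction k with
  | zero =>
    intro i hi
    rw [pow_zero, one_mul]
    exact pow_eq_zero_of_le (by omega) h2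
  | succ k ih =>
    -- downward induction on `i`
    have key : ∀ d i : ℕ, c ≤ i + 1 + d → c ≤ (i + 1) + (k + 1) * (p - 1) → (p : R) ^ (k + 1) * y ^ (i + 1) = 0 := by
      intro d
      induction d with
      | zero =>
        intro i hi _
        rw [pow_eq_zero_of_le (by omega : c ≤ i + 1) h2, mul_zero]
      | succ d ihd =>
        intro i hi hi'
        have e1 : (p : R) ^ (k + 1) * y ^ (i + 1) = (p : R) ^ k * (((p : R) * y) * y ^ i) := by
          rw [pow_succ, pow_succ']
          simp only [mul_assoc]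
        have hk : (k + 1) * (p - 1) = k * (p - 1) + (p - 1) := by ring
        have hp1 := hp.one_lt
        have e2 : (p : R) ^ k * (y ^ p * y ^ i) = 0 := by
          rw [← pow_add]
          have h5 : p + i = (p + i - 1) + 1 := by omega
          rw [h5]
          apply ih
          rw [hk] at hi'
          omega
        have e3 : (p : R) ^ k * ((p : R) * y ^ 2 * v * y ^ i) = 0 := by
          have h5 : (p : R) ^ k * ((p : R) * y ^ 2 * v * y ^ i) = ((p : R) ^ (k + 1) * y ^ (i + 1 + 1)) * v := by
            have h6 : v * y ^ i = y ^ i * v := (hvy.pow_right i).eq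
            have h7 : y ^ (i + 1 + 1) = y ^ 2 * y ^ i := by rw [← pow_add]; congr 1; ring
            rw [h7, pow_succ (p : R) k]
            simp only [mul_assoc, h6]
          rw [h5, ihd (i + 1) (by omega) (by omega), zero_mul]
        rw [e1, hpy, sub_mul, neg_mul, mul_sub, mul_neg, e2, e3, neg_zero, sub_zero]
    intro i hi
    exact key c i (by omega) hi

theorem comm_lemma {A : Type*} [CommGroup A] {p : ℕ} (hp : p.Prime) (σ : A →* A) (h1 : ∀ a, σ^[p] a = a)
    {c n : ℕ} (hc : c ≤ 1 + n * (p - 1)) (h2 : ∀ a, (fun b => σ b / b)^[c] a = 1) (a : A) :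
    (σ a) ^ (p ^ n) = a ^ (p ^ n) := by
  let x : AddMonoid.End (Additive A) := MonoidHom.toAdditive σ
  let y : AddMonoid.End (Additive A) := x - 1
  have hx : ∀ b : A, x (Additive.ofMul b) = Additive.ofMul (σ b) := fun b => rfl
  have hy : ∀ b : A, y (Additive.ofMul b) = Additive.ofMul (σ b / b) := fun b => rfl
  have hxp : (y + 1) ^ p = 1 := by
    rw [show y + 1 = x from sub_add_cancel x 1]
    ext b
    have h3 : ∀ m : ℕ, ∀ b : A, (x ^ m) (Additive.ofMul b) = Additive.ofMul (σ^[m] b) := by
      intro m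
      induction m with
      | zero => intro b; rfl
      | succ m ih =>
        intro b
        rw [pow_succ']
        show x ((x ^ m) (Additive.ofMul b)) = _
        rw [ih, hx, Function.iterate_succ_apply']
    have h4 := h3 p b.toMul
    rw [h1] at h4
    exact h4
  have hyc : y ^ c = 0 := by
    ext b
    have h3 : ∀ m : ℕ, ∀ b : A, (y ^ m) (Additive.ofMul b) = Additive.ofMul ((fun b => σ b / b)^[m] b) := by
      intro m
      induction m with
      | zero => intro b; rfl
      | succ m ih =>
        intro b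
        rw [pow_succ']
        show y ((y ^ m) (Additive.ofMul b)) = _
        rw [ih, hy, Function.iterate_succ_apply']
    have h4 := h3 c b.toMul
    rw [h2] at h4
    exact h4
  have h3 := ring_lemma hp hxp hyc n 0 (by omega)
  rw [zero_add, pow_one] at h3
  have h4 := congrArg (fun z : AddMonoid.End (Additive A) => z (Additive.ofMul a)) h3
  have h5 : ((p : AddMonoid.End (Additive A)) ^ n * y) (Additive.ofMul a) = (p ^ n) • Additive.ofMul (σ a / a) := by
    show ((p : AddMonoid.End (Additive A)) ^ n) (y (Additive.ofMul a)) = _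
    rw [hy, ← Nat.cast_pow]
    rfl
  have h6 : (p ^ n) • Additive.ofMul (σ a / a) = 0 := h5.symm.trans h4
  have h7 : (σ a / a) ^ (p ^ n) = 1 := h6
  rwa [div_pow, div_eq_one] at h7

end H88.PowAct
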