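import Cfsg.Agent.Lib.H88.PowAct
import Cfsg.Agent.Lib.H87.Syl
import Cfsg.Agent.Lib.H1.Cores

/-! The `p ^ n`-th powers of the central elements of a Sylow subgroup of bounded class, in a `p`-constrained group. -/

set_option autoImplicit false
open Cfsg H87.Syl

namespace H88.PowGrp

variable {G : Type*} [Group G] {p : ℕ} [Fact p.Prime]

/-- `z ↦ [t, z]` -/
def cm (t z : G) : G := t * z * t⁻¹ * z⁻¹

/-- An element of order `p` modulo the centralizer of `M` centralizes the `p ^ n`-th powers. -/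
theorem centralizes_pow {c n : ℕ} (hc : c ≤ 1 + n * (p - 1)) {M : Subgroup G}
    (hM : ∀ a ∈ M, ∀ b ∈ M, a * b = b * a) {t : G} (ht : ∀ m ∈ M, t * m * t⁻¹ ∈ M)
    (htp : ∀ m ∈ M, t ^ p * m * (t ^ p)⁻¹ = m) (hcm : ∀ m ∈ M, (cm t)^[c] m = 1) {m : G} (hm : m ∈ M) :
    t * m ^ (p ^ n) * t⁻¹ = m ^ (p ^ n) := by
  let _ : CommGroup M := { (inferInstance : Group M) with mul_comm := fun a b => Subtype.ext (hM a a.2 b b.2) }
  let σ : M →* M := ((MulAut.conj t).toMonoidHom.comp M.subtype).codRestrict M fun m => ht m m.2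
  have hσ : ∀ m : M, ((σ m : M) : G) = t * m * t⁻¹ := fun m => rfl
  have h1 : ∀ (k : ℕ) (m : M), ((σ^[k] m : M) : G) = t ^ k * m * (t ^ k)⁻¹ := by
    intro k
    induction k with
    | zero => intro m; simp
    | succ k ih =>
      intro m
      rw [Function.iterate_succ_apply', hσ, ih, pow_succ']
      group
  have h0 : ∀ x : M, ((σ x / x : M) : G) = cm t x := by
    intro x
    rw [div_eq_mul_inv]
    rfl
  have h2 : ∀ (k : ℕ) (m : M), (((fun b : M => σ b / b)^[k] m : M) : G) = (cm t)^[k] m := by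
    intro k
    induction k with
    | zero => intro m; rfl
    | succ k ih =>
      intro m
      rw [Function.iterate_succ_apply', Function.iterate_succ_apply', ← ih]
      exact h0 _
  have h3 := H88.PowAct.comm_lemma (Fact.out : p.Prime) σ (fun a => Subtype.ext (by rw [h1]; exact htp a a.2)) hc
    (fun a => Subtype.ext (by rw [h2]; exact hcm a a.2)) ⟨m, hm⟩
  have h4 := congrArg (fun z : M => (z : G)) h3
  have h5 : (t * m * t⁻¹) ^ (p ^ n) = m ^ (p ^ n) := h4
  rwa [conj_pow] at h5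

theorem grp {c n : ℕ} (hc : c ≤ 1 + n * (p - 1)) : ∀ (N : ℕ) (L M S : Subgroup G), Finite L → M ≤ L → Nat.card M ≤ N →
    (∀ a ∈ M, ∀ b ∈ M, a * b = b * a) → (∀ g ∈ L, ∀ m ∈ M, g * m * g⁻¹ ∈ M) → SylIn p S L →
    (∀ t ∈ L, (∃ k, t ^ p ^ k = 1) → ∀ m ∈ M, (cm t)^[c] m = 1) →
    ∀ g ∈ L, ∀ z ∈ M, (∀ s ∈ S, s * z = z * s) →
      ∃ w ∈ M, (∀ s ∈ S, s * w = w * s) ∧ g * z ^ (p ^ n) * g⁻¹ = w ^ (p ^ n) := by
  intro N
  induction N with
  | zero =>
    intro L M S hL hML hN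
    have : Finite M := Finite.of_injective _ (Subgroup.inclusion_injective hML)
    have : 0 < Nat.card M := Nat.card_pos
    omega
  | succ N ih =>
    intro L M S hfinL hML hN hM hLM hS hcm g hg z hz hzS
    have hfinM : Finite M := Finite.of_injective _ (Subgroup.inclusion_injective hML)
    -- the subgroup centralizing the powers
    let K : Subgroup G :=
      { carrier := {g | g ∈ L ∧ ∀ m ∈ M, g * m ^ (p ^ n) * g⁻¹ = m ^ (p ^ n)}
        mul_mem' := by
          rintro a b ⟨ha, ha'⟩ ⟨hb, hb'⟩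
          refine ⟨L.mul_mem ha hb, fun m hm => ?_⟩
          calc a * b * m ^ (p ^ n) * (a * b)⁻¹ = a * (b * m ^ (p ^ n) * b⁻¹) * a⁻¹ := by group
            _ = m ^ (p ^ n) := by rw [hb' m hm, ha' m hm]
        one_mem' := ⟨L.one_mem, fun m _ => by group⟩
        inv_mem' := by
          rintro a ⟨ha, ha'⟩
          refine ⟨L.inv_mem ha, fun m hm => ?_⟩
          have h1 := ha' m hm
          calc a⁻¹ * m ^ (p ^ n) * a⁻¹⁻¹ = a⁻¹ * (a * m ^ (p ^ n) * a⁻¹) * a⁻¹⁻¹ := by rw [h1]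
            _ = m ^ (p ^ n) := by group }
    have hKL : K ≤ L := fun x hx => hx.1
    have hKn : ∀ a ∈ L, ∀ x ∈ K, a * x * a⁻¹ ∈ K := by
      rintro a ha x ⟨hx, hx'⟩
      refine ⟨L.mul_mem (L.mul_mem ha hx) (L.inv_mem ha), fun m hm => ?_⟩
      have h1 := hLM a⁻¹ (L.inv_mem ha) m hm
      have h2 := hx' _ h1
      have h3 : (a⁻¹ * m * a⁻¹⁻¹) ^ (p ^ n) = a⁻¹ * m ^ (p ^ n) * a⁻¹⁻¹ := conj_pow
      rw [h3] at h2
      calc a * x * a⁻¹ * m ^ (p ^ n) * (a * x * a⁻¹)⁻¹
          = a * (x * (a⁻¹ * m ^ (p ^ n) * a⁻¹⁻¹) * x⁻¹) * a⁻¹ := by group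
        _ = m ^ (p ^ n) := by rw [h2]; group
    have hSK := hS.inf_normal hKL hKn
    have hSL := hS.le
    by_cases hcase : ∀ s ∈ S ⊓ K, ∀ m ∈ M, s * m = m * s
    · -- `S` centralizes `M`
      have hSM : ∀ s ∈ S, ∀ m ∈ M, s * m = m * s := by
        intro s hs
        obtain ⟨k, hk⟩ := hS.isP ⟨s, hs⟩
        have hk' : s ^ p ^ k = 1 := congrArg Subtype.val hk
        have key : ∀ j : ℕ, ∀ t ∈ S, t ^ p ^ j = 1 → ∀ m ∈ M, t * m = m * t := by
          intro j
          induction j with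
          | zero =>
            intro t _ ht m _
            rw [pow_zero, pow_one] at ht
            rw [ht, one_mul, mul_one]
          | succ j ihj =>
            intro t ht htj m hm
            have h1 : ∀ m ∈ M, t ^ p * m = m * t ^ p := ihj (t ^ p) (S.pow_mem ht p) (by
              rw [← pow_mul, ← pow_succ']; exact htj)
            refine hcase t ⟨ht, hSL ht, fun m hm => ?_⟩ m hm
            refine centralizes_pow hc hM (hLM t (hSL ht)) (fun m hm => ?_) (hcm t (hSL ht) ⟨_, htj⟩) hm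
            rw [h1 m hm, mul_inv_cancel_right]
        exact key k s hs hk'
      refine ⟨g * z * g⁻¹, hLM g hg z hz, fun s hs => hSM s hs _ (hLM g hg z hz), ?_⟩
      rw [conj_pow]
    · push Not at hcase
      obtain ⟨s₀, hs₀, m₀, hm₀, hne⟩ := hcase
      let M₁ : Subgroup G := M ⊓ Subgroup.centralizer ((S ⊓ K : Subgroup G) : Set G)
      let L₁ : Subgroup G := L ⊓ Subgroup.normalizer ((S ⊓ K : Subgroup G) : Set G)
      have hM₁ : Nat.card M₁ ≤ N := by
        have h1 : Nat.card M₁ < Nat.card M := by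
          refine lt_of_le_of_ne (Nat.card_le_card_of_injective _
            (Subgroup.inclusion_injective (inf_le_left : M₁ ≤ M))) fun h => ?_
          have h2 : M₁ = M := Subgroup.eq_of_le_of_card_ge inf_le_left h.ge
          have h3 : m₀ ∈ M₁ := by rw [h2]; exact hm₀
          exact hne ((Subgroup.mem_centralizer_iff.1 h3.2) s₀ hs₀)
        omega
      have hSL₁ : S ≤ L₁ := by
        intro s hs
        refine ⟨hSL hs, Subgroup.mem_normalizer_iff.2 fun x => ?_⟩
        constructor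
        · intro hx
          exact ⟨S.mul_mem (S.mul_mem hs hx.1) (S.inv_mem hs), hKn s (hSL hs) x hx.2⟩
        · intro hx
          have h1 : x = s⁻¹ * (s * x * s⁻¹) * s⁻¹⁻¹ := by group
          rw [h1]
          exact ⟨S.mul_mem (S.mul_mem (S.inv_mem hs) hx.1) (S.inv_mem (S.inv_mem hs)),
            hKn _ (L.inv_mem (hSL hs)) _ hx.2⟩
      have hS₁ : SylIn p S L₁ := hS.of_le hSL₁ inf_le_left
      have hz₁ : z ∈ M₁ := ⟨hz, Subgroup.mem_centralizer_iff.2 fun s hs => hzS s hs.1⟩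
      have hML₁ : M₁ ≤ L₁ := by
        intro m hm
        refine ⟨hML hm.1, ?_⟩
        exact (Subgroup.centralizer_le_normalizer ((S ⊓ K : Subgroup G) : Set G)) hm.2
      have hLM₁ : ∀ g ∈ L₁, ∀ m ∈ M₁, g * m * g⁻¹ ∈ M₁ := by
        intro g hg m hm
        refine ⟨hLM g hg.1 m hm.1, Subgroup.mem_centralizer_iff.2 fun s hs => ?_⟩
        have h1 : g⁻¹ * s * g ∈ S ⊓ K := by
          have h2 := (Subgroup.mem_normalizer_iff.1 hg.2 (g⁻¹ * s * g)).2
          apply h2
          have h3 : g * (g⁻¹ * s * g) * g⁻¹ = s := by group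
          rw [h3]
          exact hs
        have h2 := (Subgroup.mem_centralizer_iff.1 hm.2) _ h1
        calc s * (g * m * g⁻¹) = g * (g⁻¹ * s * g * m) * g⁻¹ := by group
          _ = g * (m * (g⁻¹ * s * g)) * g⁻¹ := by rw [h2]
          _ = g * m * g⁻¹ * s := by group
      have hfinL₁ : Finite L₁ := Finite.of_injective _ (Subgroup.inclusion_injective (inf_le_left : L₁ ≤ L))
      obtain ⟨x, hx, hxn⟩ := hSK.frattini hKL hKn hg
      have hxg : x * g ∈ L₁ := ⟨L.mul_mem (hKL hx) hg, Subgroup.mem_normalizer_iff.2 hxn⟩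
      obtain ⟨w, hw, hwS, hwe⟩ := ih L₁ M₁ S hfinL₁ hML₁ hM₁ (fun a ha b hb => hM a ha.1 b hb.1) hLM₁ hS₁
        (fun t ht htp m hm => hcm t ht.1 htp m hm.1) _ hxg z hz₁ hzS
      refine ⟨w, hw.1, hwS, ?_⟩
      have h1 := (K.inv_mem hx).2 w hw.1
      calc g * z ^ (p ^ n) * g⁻¹ = x⁻¹ * (x * g * z ^ (p ^ n) * (x * g)⁻¹) * x⁻¹⁻¹ := by group
        _ = w ^ (p ^ n) := by rw [hwe, h1]

/-- The centre of a Sylow subgroup. -/
theorem main [Finite G] {n : ℕ} (P : Sylow p G)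
    (hcl : Subgroup.lowerCentralSeries (P : Subgroup G) (n * (p - 1) + 1) = ⊥)
    (hC : Subgroup.centralizer ((pCore p G : Subgroup G) : Set G) ≤ pCore p G) {z : G}
    (hz : z ∈ (P : Subgroup G) ⊓ Subgroup.centralizer ((P : Subgroup G) : Set G)) (g : G) :
    ∃ w ∈ (P : Subgroup G) ⊓ Subgroup.centralizer ((P : Subgroup G) : Set G),
      g * z ^ (p ^ n) * g⁻¹ = w ^ (p ^ n) := by
  have hQP : pCore p G ≤ (P : Subgroup G) := H1.Cores.pCore_le_sylow P
  have hQn : (pCore p G).Normal := inferInstance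
  let M : Subgroup G := pCore p G ⊓ Subgroup.centralizer ((pCore p G : Subgroup G) : Set G)
  have hMn : ∀ g : G, ∀ m ∈ M, g * m * g⁻¹ ∈ M := by
    intro g m hm
    refine ⟨hQn.conj_mem _ hm.1 g, Subgroup.mem_centralizer_iff.2 fun s hs => ?_⟩
    have h1 : g⁻¹ * s * g⁻¹⁻¹ ∈ pCore p G := hQn.conj_mem _ hs g⁻¹
    have h2 := (Subgroup.mem_centralizer_iff.1 hm.2) _ h1
    calc s * (g * m * g⁻¹) = g * (g⁻¹ * s * g⁻¹⁻¹ * m) * g⁻¹ := by group
      _ = g * (m * (g⁻¹ * s * g⁻¹⁻¹)) * g⁻¹ := by rw [h2]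
      _ = g * m * g⁻¹ * s := by group
  have hzM : z ∈ M := by
    have h1 : z ∈ Subgroup.centralizer ((pCore p G : Subgroup G) : Set G) :=
      Subgroup.mem_centralizer_iff.2 fun s hs => (Subgroup.mem_centralizer_iff.1 hz.2) s (hQP hs)
    exact ⟨hC h1, h1⟩
  have hcomm : ∀ t ∈ (⊤ : Subgroup G), (∃ k, t ^ p ^ k = 1) → ∀ m ∈ M, (cm t)^[n * (p - 1) + 1] m = 1 := by
    intro t _ ht m hm
    obtain ⟨k, hk⟩ := ht
    have htp : IsPGroup p (Subgroup.zpowers t) := by
      rintro ⟨x, hx⟩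
      obtain ⟨j, rfl⟩ := Subgroup.mem_zpowers_iff.1 hx
      refine ⟨k, Subtype.ext ?_⟩
      show (t ^ j) ^ p ^ k = 1
      rw [← zpow_natCast, ← zpow_mul, mul_comm, zpow_mul, zpow_natCast, hk, one_zpow]
    obtain ⟨a, -, ha⟩ := (sylIn_top P).conj (le_top : Subgroup.zpowers t ≤ ⊤) htp
    have h1 := ha t (Subgroup.mem_zpowers t)
    have h2 : ∀ j : ℕ, (cm (a * t * a⁻¹))^[j] (a * m * a⁻¹) = a * (cm t)^[j] m * a⁻¹ := by
      intro j
      induction j with
      | zero => rfl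
      | succ j ih =>
        rw [Function.iterate_succ_apply', Function.iterate_succ_apply', ih]
        unfold cm
        group
    have h3 : ∀ j : ℕ, ∀ x ∈ (P : Subgroup G), (cm (a * t * a⁻¹))^[j] x ∈
        Subgroup.lowerCentralSeries (P : Subgroup G) j := by
      intro j
      induction j with
      | zero => intro x hx; exact hx
      | succ j ih =>
        intro x hx
        rw [Function.iterate_succ_apply', Subgroup.lowerCentralSeries_succ]
        rw [Subgroup.commutator_comm]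
        exact Subgroup.commutator_mem_commutator h1 (ih x hx)
    have h4 := h3 (n * (p - 1) + 1) (a * m * a⁻¹) (hQP (hMn a m hm).1)
    rw [hcl, Subgroup.mem_bot, h2] at h4
    calc (cm t)^[n * (p - 1) + 1] m = a⁻¹ * (a * (cm t)^[n * (p - 1) + 1] m * a⁻¹) * a := by group
      _ = 1 := by rw [h4]; group
  obtain ⟨w, hw, hwS, hwe⟩ := grp (p := p) (c := n * (p - 1) + 1) (n := n) (by omega) (Nat.card M) ⊤ M (P : Subgroup G)
    inferInstance le_top le_rfl (fun a ha b hb => (Subgroup.mem_centralizer_iff.1 hb.2) a ha.1)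
    (fun g _ m hm => hMn g m hm) (sylIn_top P) hcomm g (Subgroup.mem_top _) z hzM
    (fun s hs => (Subgroup.mem_centralizer_iff.1 hz.2) s hs)
  exact ⟨w, ⟨hQP hw.1, Subgroup.mem_centralizer_iff.2 hwS⟩, hwe⟩

end H88.PowGrp
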